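import Cfsg.Agent.H1.NatM
import Cfsg.Agent.H1.LS4
import Cfsg.Agent.H2.ZJ
import Cfsg.Prelude.Def_BaumannBlocks

/-! `B(T)`-blocks: first properties. -/

set_option linter.unusedSectionVars false

namespace H1B
open Subgroup Cfsg H7
open H1 (ncl)
open H2 (mv slU)
open scoped commutatorElement H2 MatrixGroups

theorem der_trans {F : Type*} [Field F] {v w : Fin 2 → F} (hv : v ≠ 0) (hw : w ≠ 0) :
    ∃ M ∈ commutator SL(2, F), mv M v = w := by
  have t : commutator SL(2, F) ⊔ slU F = ⊤ := by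
    obtain ⟨N, hN⟩ := H2.exists_mv_eq (v := ![(1 : F), 0]) (w := ![0, 1]) (by simp) (by simp)
    have m : H4.slUp (1 : F) ∈ slU F := ⟨1, rfl⟩
    refine H2.sl2_eq_top_of le_sup_right (M := N * H4.slUp 1 * N⁻¹) (by
      rw [show N * H4.slUp 1 * N⁻¹ = ⁅N, H4.slUp (1 : F)⁆ * H4.slUp 1 by group]
      exact mul_mem (mem_sup_left (commutator_mem_commutator (mem_top _) (mem_top _))) (mem_sup_right m)) ?_
    have a := congrFun hN 0
    have b := congrFun hN 1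
    simp [mv, Matrix.mulVec, dotProduct, Fin.sum_univ_two] at a b
    simp [Matrix.SpecialLinearGroup.coe_mul, Matrix.mul_apply, Fin.sum_univ_two, H4.slUp, Matrix.SpecialLinearGroup.coe_inv,
      Matrix.adjugate_fin_two, a, b]
  have k : ∀ {v : Fin 2 → F}, v ≠ 0 → ∃ M ∈ commutator SL(2, F), mv M ![1, 0] = v := fun hv => by
    obtain ⟨N, hN⟩ := H2.exists_mv_eq (v := ![(1 : F), 0]) (by simp) hv
    obtain ⟨d, hd, u, hu, rfl⟩ := (mem_sup_nrm' (le_nrm_of_normal _ _)).1 (t.ge (mem_top N))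
    obtain ⟨a, b⟩ := mem_slU.1 hu
    refine ⟨d, hd, ?_⟩
    rw [← hN, H2.mv_mul]
    congr 1
    exact vec_ext (by simp [mv, Matrix.mulVec, dotProduct, a]) (by simp [mv, Matrix.mulVec, dotProduct, b])
  obtain ⟨M, hM, rfl⟩ := k hv
  obtain ⟨N, hN, rfl⟩ := k hw
  exact ⟨N * M⁻¹, mul_mem hN (inv_mem hM), by rw [← H2.mv_mul, inv_mul_cancel_right]⟩

theorem even_irr {n : ℕ} (hn : Odd n) (Y : AddSubgroup (Fin n → ZMod 2))
    (h : ∀ σ ∈ alternatingGroup (Fin n), ∀ v ∈ Y, v ∘ σ ∈ Y) {v : Fin n → ZMod 2} (hv : v ∈ Y) (v0 : v ≠ 0)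
    (vs : ∑ i, v i = 0) {u : Fin n → ZMod 2} (us : ∑ i, u i = 0) : u ∈ Y := by
  have z : ∀ a : ZMod 2, a = 0 ∨ a = 1 := by decide
  have tr : ∀ {a b : Fin n → ZMod 2}, a ∈ Y → (∀ t, a t = b t) → b ∈ Y := fun m e => funext e ▸ m
  have sw : ∀ {a b c : Fin n}, a ≠ b → b ≠ c → Equiv.swap a b * Equiv.swap b c ∈ alternatingGroup (Fin n) :=
    fun h1 h2 => by simp [Equiv.Perm.mem_alternatingGroup, Equiv.Perm.sign_swap h1, Equiv.Perm.sign_swap h2]
  obtain ⟨i, hi⟩ : ∃ i, v i = 1 := by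
    by_contra! c; exact v0 (funext fun i => (z _).resolve_right (c i))
  obtain ⟨j, hj⟩ : ∃ j, v j = 0 := by
    by_contra! c
    rw [Finset.sum_congr rfl fun i _ => (z _).resolve_left (c i)] at vs
    obtain ⟨m, rfl⟩ := hn
    simp only [Finset.sum_const, Finset.card_univ, Fintype.card_fin, nsmul_eq_mul, mul_one] at vs
    exact absurd ((ZMod.natCast_eq_zero_iff _ 2).1 vs) (by omega)
  have ij : i ≠ j := fun e => by rw [e, hj] at hi; exact absurd hi (by decide)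
  obtain ⟨k, ki, kj⟩ : ∃ k, k ≠ i ∧ k ≠ j := by
    by_contra! c
    have : (Finset.univ : Finset (Fin n)) = {i, j} := Finset.ext fun k => by
      by_cases e : k = i
      · simp [e]
      · simp [c k e]
    have := congrArg Finset.card this
    rw [Finset.card_pair ij, Finset.card_univ, Fintype.card_fin] at this
    exact absurd (this ▸ hn) (by decide)
  obtain ⟨b, ib, hb⟩ : ∃ b, i ≠ b ∧ (Pi.single i 1 + Pi.single b 1 : Fin n → ZMod 2) ∈ Y := by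
    have m := add_mem hv (h _ (sw ij kj.symm) v hv)
    rcases z (v k) with e | e
    · refine ⟨k, ki.symm, tr m fun t => ?_⟩
      by_cases a : t = i
      · subst a; simp [Equiv.swap_apply_def, ij, ki.symm, hi, hj]
      by_cases b : t = j
      · subst b; simp [Equiv.swap_apply_def, a, ki, kj, kj.symm, e, hj]
      by_cases c : t = k
      · subst c; simp [a, e, hi]
      simp [Equiv.swap_apply_def, a, b, c, CharTwo.add_self_eq_zero]
    · refine ⟨j, ij, tr m fun t => ?_⟩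
      by_cases a : t = i
      · subst a; simp [Equiv.swap_apply_def, ij, ki.symm, hi, hj]
      by_cases b : t = j
      · subst b; simp [Equiv.swap_apply_def, a, ki, kj, e, hj]
      by_cases c : t = k
      · subst c; simp [a, b, e, hi, CharTwo.add_self_eq_zero]
      simp [Equiv.swap_apply_def, a, b, c, CharTwo.add_self_eq_zero]
  have al : ∀ c, (Pi.single i 1 + Pi.single c 1 : Fin n → ZMod 2) ∈ Y := fun c => by
    by_cases a1 : c = i
    · exact tr (zero_mem _) fun t => by rw [a1, Pi.add_apply, CharTwo.add_self_eq_zero]; rfl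
    by_cases a2 : c = b
    · exact a2 ▸ hb
    refine tr (h _ (sw ib (Ne.symm a2)) _ hb) fun t => ?_
    by_cases a : t = i
    · subst a; simp [Equiv.swap_apply_def, ib, ib.symm, Ne.symm a1]
    by_cases b' : t = b
    · subst b'; simp [Equiv.swap_apply_def, a, a1, a2, Ne.symm a2]
    by_cases c' : t = c
    · subst c'; simp [a, ib]
    simp [Equiv.swap_apply_def, a, b', c']
  have : u = ∑ c, (u c).val • (Pi.single i 1 + Pi.single c 1 : Fin n → ZMod 2) := funext fun t => by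
    rw [Finset.sum_apply]
    simp only [Pi.smul_apply, Pi.add_apply]
    simp only [nsmul_eq_mul, ZMod.natCast_zmod_val, mul_add, Finset.sum_add_distrib, ← Finset.sum_mul, us]
    simp [Pi.single_apply]
  rw [this]
  exact sum_mem fun c _ => nsmul_mem (al c) _

variable {G : Type*} [Group G] [Finite G] {A B C D E H J K L M N P Q R S T U V W X Y Z : Subgroup G} {p : ℕ}
  {a b c g t x y z : G}

theorem irr_sl {F : Type*} [Field F] (h : ActsAsSL2OnSection F (commutator SL(2, F)) E U V) (hX : X ≤ U) (hn : E ≤ nrm X)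
    (c : ¬ X ≤ V) : U ≤ X ⊔ V := fun u hu => by
  obtain ⟨-, -, ρ, ψ, h1, -, h3, h4⟩ := h
  obtain ⟨x, hx, c⟩ := SetLike.not_le_iff_exists.1 c
  by_cases e : ψ ⟨u, hu⟩ = 1
  · exact mem_sup_right ((h3 _).1 e)
  obtain ⟨M, hM, k⟩ := der_trans (v := (ψ ⟨x, hX hx⟩).toAdd) (w := (ψ ⟨u, hu⟩).toAdd) (fun k => c ((h3 _).1 k)) e
  obtain ⟨g, rfl⟩ := h1.ge hM
  obtain ⟨w, w1, w2⟩ := h4 g ⟨x, hX hx⟩
  have m := (h3 (w⁻¹ * ⟨u, hu⟩)).1 (by rw [map_mul, map_inv, inv_mul_eq_one]; exact Multiplicative.toAdd.injective (w2.trans k))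
  exact (mul_mem_cancel_left (inv_mem (mem_sup_left (w1 ▸ conj_mem hn g.2 hx)))).1 (mem_sup_right m)

theorem irr_perm {n : ℕ} (o : Odd n) (h : ActsAsOddPermModuleOnSection n (alternatingGroup (Fin n)) E U V) (hX : X ≤ U)
    (hn : E ≤ nrm X) (c : ¬ X ≤ V) : U ≤ X ⊔ V := fun u hu => by
  obtain ⟨-, -, ρ, ψ, h1, h2, -, h3, h4⟩ := h
  obtain ⟨x, hx, c⟩ := SetLike.not_le_iff_exists.1 c
  obtain ⟨w, hw, e⟩ := even_irr o (Subgroup.toAddSubgroup' ((X.subgroupOf U).map ψ)) (fun σ hσ v hv => by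
    obtain ⟨y, hy, rfl⟩ : ∃ y ∈ X.subgroupOf U, (ψ y).toAdd = v := hv
    obtain ⟨g, e⟩ := h1.ge (inv_mem hσ)
    obtain ⟨w, w1, w2⟩ := h4 g y
    exact ⟨w, mem_subgroupOf.2 (w1 ▸ conj_mem hn g.2 hy), funext fun i => (w2 i).trans (by rw [e, inv_inv]; rfl)⟩)
    (v := (ψ ⟨x, hX hx⟩).toAdd) ⟨_, hx, rfl⟩ (fun k => c ((h3 _).1 k)) (h2 _) (h2 ⟨u, hu⟩)
  have m := (h3 (w⁻¹ * ⟨u, hu⟩)).1 (by rw [map_mul, map_inv, inv_mul_eq_one]; exact e)
  exact (mul_mem_cancel_left (inv_mem (mem_sup_left (mem_subgroupOf.1 hw)))).1 (mem_sup_right m)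

variable [hp : Fact p.Prime]

abbrev Bm (p : ℕ) (T : Subgroup G) : Subgroup G := T ⊓ cen (Z1 p (JJ p T))

theorem baumann_eq : baumannSubgroupOf p T = Bm p T := by rw [baumannSubgroupOf, omegaOne_eq]; rfl

theorem omegaOneCenter_eq : omegaOneCenter p X = Z1 p X := omegaOne_eq

theorem cj_Bm (g : G) (T : Subgroup G) : cj g (Bm p T) = Bm p (cj g T) := by rw [H7.cj_inf, cj_cen, cj_Z1, H2.cj_J]

theorem J_le_Bm (T : Subgroup G) : JJ p T ≤ Bm p T := le_inf (H2.thompsonE_le T) (le_cen_Z1 _ _)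

theorem nrm_Bm (h : A ≤ nrm T) : A ≤ nrm (Bm p T) := nrm_inf h (nrm_cen (nrm_Z1 (H2.nrm_J h)))

theorem J_eq_of_cj (h : JJ p T ≤ cj g T) : JJ p (cj g T) = JJ p T := by
  refine (eq_of_le_of_card_le (H2.J_le_iff.2 fun A hA => H2.MX.le_J ⟨hA.le_J.trans h, hA.2.1, fun B hB e => ?_⟩)
    (by rw [← H2.cj_J, H2.card_cj])).symm
  exact (H2.card_cj g⁻¹ B).ge.trans (hA.2.2 _ (by simpa using (H7.cj_le_iff (g := g⁻¹)).2 (by simpa using hB)) (EA.cj e _))

theorem Bm_eq_of_cj (h : Bm p T ≤ cj g T) : Bm p (cj g T) = Bm p T :=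
  (eq_of_le_of_card_le (le_inf h (by rw [J_eq_of_cj ((J_le_Bm T).trans h)]; exact inf_le_right))
    (by rw [← H2.card_cj g (Bm p T), cj_Bm])).symm

theorem le_nrm_Bm (hT : IsSylowIn p T H) (hQ : IsPGroup p Q) (hH : Q ≤ H) (hn : Bm p T ≤ nrm Q) : Q ≤ nrm (Bm p T) := by
  obtain ⟨g, -, l⟩ := hT.exists_cj_le (H7.isPGroup_sup hn (hT.2.to_le inf_le_left) hQ) (sup_le (inf_le_left.trans hT.1) hH)
  have l' := H7.cj_le_iff.1 l
  exact Bm_eq_of_cj (le_sup_left.trans l') ▸ nrm_Bm (le_sup_right.trans (l'.trans (le_nrm_self _)))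

/-- the abstract content of a `B(T)`-block -/
structure BB (p : ℕ) (T E : Subgroup G) : Prop where
  res : pRes p E = E
  comm : ⁅E, Bm p T⁆ = E
  oc : ⁅Op p E, E⁆ = Op p E
  ne : ⁅E, Z1 p T⁆ ≠ ⊥
  irr : ∀ X ≤ Z1 p (Op p E), E ≤ nrm X → ¬ X ≤ cen E → Z1 p (Op p E) ≤ X ⊔ Z1 p (Op p E) ⊓ cen E
  ab : ∀ X ≤ Op p E, E ≤ nrm X → X ≤ cen X → X ≤ Z1 p (Op p E)

theorem bb_of (h : IsBaumannBlock p T E) : BB p T E := by
  obtain ⟨h1, h2, h3, h4, h5⟩ := h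
  rw [pResidualOf, H2.map_pResidual_subtype] at h1
  simp only [baumann_eq, pCoreOf_eq, omegaOneCenter_eq] at h2 h3 h4 h5
  refine ⟨h1, h2, h3, h4, fun X a b c => ?_, fun X a b c => ?_⟩
  · rcases h5 with ⟨F, _, _, n, -, -, k, -⟩ | ⟨-, m, -, k, -⟩
    · exact irr_sl k a b fun d => c (d.trans inf_le_right)
    · exact irr_perm ⟨m, rfl⟩ k a b fun d => c (d.trans inf_le_right)
  rcases h5 with ⟨F, _, _, n, hn, -, -, e | ⟨rfl, k, e1, -, e2, e3, -⟩⟩ | ⟨-, m, -, -, e⟩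
  · exact a.trans e.le
  · by_contra d
    have l := irr_sl k a b d
    have z := Z1_le_cen 3 (Op 3 E)
    have : Op 3 E ≤ cen (Op 3 E) := l.trans (sup_le (le_cen_symm (l.trans (sup_le c (z.trans (cen_anti a))))) z)
    rw [e2, ← e1, comm_eq_bot.2 this, card_bot] at e3
    have := Fintype.one_lt_card (α := F)
    omega
  · exact a.trans e.le

namespace BB
variable (h : BB p T E)
include h

theorem nB : Bm p T ≤ nrm E := h.comm ▸ nrm_comm_right E _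

theorem le_of (hn : E ≤ nrm N) (hB : Bm p T ≤ N) : E ≤ N := (h.comm.ge.trans (comm_le_ncl' _ _)).trans (H1.ncl_le hB hn)

theorem nrm_of (hT : IsSylowIn p T ⊤) (hQ : IsPGroup p Q) (h1 : Bm p T ≤ nrm Q) (h2 : E ≤ nrm Q) : Q ≤ nrm E := by
  have e : ncl (Bm p T) E = E ⊔ Bm p T := le_antisymm (H1.ncl_le_of_le le_sup_right le_sup_left)
    (sup_le (h.le_of H1.le_nrm_ncl H1.le_ncl) H1.le_ncl)
  have := le_nrm_pRes (p := p) (e ▸ nrm_ncl_of h2 (le_nrm_Bm hT hQ le_top h1))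
  rwa [pRes_sup_pg (hT.2.to_le inf_le_left) h.nB, h.res] at this

theorem main (hT : IsSylowIn p T ⊤) (hc : ChP p (⊤ : Subgroup G)) : pRes p (E ⊔ Op p ⊤) = E ∧
    ⁅Z1 p (Op p E), E⁆ ≤ Z1 p (Op p ⊤) ∧ ⁅⁅Z1 p (Op p E), E⁆, JJ p T⁆ ≠ ⊥ := by
  have nR : ∀ A : Subgroup G, A ≤ nrm (Op p ⊤) := fun A => le_top.trans (le_nrm_Opi _ _)
  have n := h.nrm_of hT (isPGroup_Op p ⊤) (nR _) (nR _)
  set Y := Z1 p (Op p (⊤ : Subgroup G))
  have nY : E ≤ nrm Y := nrm_Z1 (nR _)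
  have l : ⁅Y, E⁆ ≤ Y := comm_le_left nY
  have lO : ⁅Y, E⁆ ≤ Op p E := (le_inf (l.trans (Z1_le _ _)) (comm_le_right ((Z1_le _ _).trans n))).trans (inf_le_Opi _ le_top)
  have lW := h.ab _ lO (nrm_comm_right _ _) ((ea_Z1 _ _).of_le l).le_cen
  have nc : ¬ ⁅Y, E⁆ ≤ cen E := fun c => h.ne (comm_eq_bot.2 ((h.res.ge.trans (pRes_le_cen_of_quad (ea_Z1 _ _).isPGroup nY c)).trans
    (cen_anti (hc.Z1_le le_top (Op_le_of_sylow hT)))))
  have w : ⁅Z1 p (Op p E), E⁆ ≤ Y := (commutator_mono (h.irr _ lW (nrm_comm_right _ _) nc) le_rfl).trans (comm_sup_le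
    (l.trans (le_nrm_self _)) (nrm_Z1 (nR _)) ((commutator_mono l le_rfl).trans l) ((comm_eq_bot.2 inf_le_right).le.trans bot_le))
  refine ⟨by rw [pRes_sup_pg (isPGroup_Op p ⊤) n, h.res], w, fun e => nc (lW.trans (le_cen_symm (h.res.ge.trans
    (pRes_le_cen_of_quad (ea_Z1 _ _).isPGroup (nrm_Z1 (le_nrm_Opi _ _)) (le_cen_symm (h.le_of (nrm_cen (nrm_comm_right _ _))
      (inf_le_right.trans (cen_anti ?_))))))))⟩
  obtain ⟨A, hA⟩ := H2.exists_mx (P := T) p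
  have c := comm_eq_bot.1 e
  have eW := (ea_Z1 _ _).of_le w
  exact le_Z1 eW (fun x hx => hA.le_J (hA.mem (Op_le_of_sylow hT (Z1_le _ _ (w hx))) (cen_anti hA.le_J (c hx)) (eW.pow hx))) c

end BB

end H1B
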