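import Cfsg.Agent.H1.Two5
import Cfsg.Agent.H1.V1
import Cfsg.Agent.H1.U2
import Cfsg.Agent.H2.NPC
import Cfsg.Agent.H2.WN1
import Cfsg.Agent.H7.Tk4

/-! Normal subgroups whose noncentral elements have maximal centralizers. -/

set_option linter.unusedSectionVars false

namespace H1B
open Subgroup Cfsg H7
open H2 (cj IsSylowIn)
open scoped commutatorElement

variable {G : Type*} [Group G] [Finite G] {p q : ℕ} {N V A B P : Subgroup G} {x y : G}

/-- `N` is normal and its noncentral elements have maximal centralizers -/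
structure CMx (N : Subgroup G) : Prop where
  n : ⊤ ≤ nrm N
  h : ∀ x ∈ N, x ∉ cen N → IsCoatom (cen1 x)

theorem cop_pp [Fact p.Prime] (hV : IsPGroup p V) (hx : x ∈ V) (hy : (orderOf y).Coprime p) :
    (orderOf x).Coprime (orderOf y) :=
  ((coprime_of_isPGroup hV hy).coprime_dvd_right (orderOf_dvd_card' hx)).symm

theorem mem_of_mul_mem_cop {K : Subgroup G} (e : x * y = y * x) (c : (orderOf x).Coprime (orderOf y)) (h : x * y ∈ K) :
    x ∈ K := by
  refine mem_of_pow_mem' (n := orderOf y) ?_ c.symm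
  have := K.pow_mem h (orderOf y)
  rwa [(show Commute x y from e).mul_pow, pow_orderOf_eq_one, mul_one] at this

theorem coat_sup {M : Subgroup G} (hM : IsCoatom M) (h : ¬ A ≤ M) : M ⊔ A = ⊤ :=
  hM.2 _ (left_lt_sup.2 h)

theorem top_nrm_of_sup {M : Subgroup G} (e : M ⊔ A = ⊤) (h1 : M ≤ nrm B) (h2 : A ≤ nrm B) : ⊤ ≤ nrm B :=
  e ▸ sup_le h1 h2

namespace CMx

theorem cen1_le (h : CMx N) (hx : x ∈ N) (hx' : x ∉ cen N) (hy : y ∈ N) (e : x * y = y * x)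
    (c : (orderOf x).Coprime (orderOf y)) : cen1 x ≤ cen1 y := by
  have l1 : cen1 (x * y) ≤ cen1 x := fun g hg => mem_cen1_comm.1 (mem_of_mul_mem_cop e c (mem_cen1_comm.1 hg))
  have l2 : cen1 (x * y) ≤ cen1 y := fun g hg =>
    mem_cen1_comm.1 (mem_of_mul_mem_cop e.symm c.symm (e ▸ mem_cen1_comm.1 hg))
  have k := h.h _ (N.mul_mem hx hy) fun hz => hx' (mem_of_mul_mem_cop e c hz)
  exact ((k.le_iff.1 l1).resolve_left (h.h x hx hx').1).le.trans l2

theorem nrm_cen (h : CMx N) (A : Subgroup G) : A ≤ nrm (cen N) := H7.nrm_cen (le_top.trans h.n)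

theorem nrm_Z (h : CMx N) (A : Subgroup G) : A ≤ nrm (N ⊓ cen N) := nrm_inf (le_top.trans h.n) (h.nrm_cen A)

theorem nrm_Op (h : CMx N) (p : ℕ) (A : Subgroup G) : A ≤ nrm (Op p N) := nrm_Opi _ (le_top.trans h.n)

theorem Phi_le (h : CMx N) (hV : V ≤ N) (n : ⊤ ≤ nrm V) : Phi V ≤ cen N := by
  refine le_cen_symm fun g hg => ?_
  by_cases hc : g ∈ cen N
  · exact cen_anti ((H7.Phi_le V).trans hV) hc
  · have k := h.h g hg hc
    exact le_cen1_iff.1 ((Phi_le_of_normal n le_top).trans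
      (Phi_le_of_max k.lt_top fun L h1 _ => (k.le_iff.1 h1).symm))

variable [hp : Fact p.Prime]

theorem le_cen_of_normal (h : CMx N) (hV : V ≤ N) (n : ⊤ ≤ nrm V) (hP : IsPGroup p V) (hy : y ∈ N) (hy' : y ∉ cen N)
    (c : (orderOf y).Coprime p) (k : V ≤ cen1 y) : V ≤ cen N := by
  intro x hx
  by_contra hx'
  obtain ⟨g, hg, hg'⟩ : ∃ g ∈ N, g ∉ cen1 y := by
    by_contra! a
    exact hy' (le_cen1_iff.1 a)
  have l := h.cen1_le (hV hx) hx' hy (mem_cen1.1 (k hx)) (cop_pp hP hx c)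
  have e := coat_sup (h.h g hg fun a => hg' (cen_le_cen1 hy a)) (A := V) fun a => hg' (l (mem_cen1_comm.1 (a hx)))
  obtain ⟨a, ha, v, hv, e'⟩ := (mem_sup_nrm (le_top.trans n)).1 (e.ge (mem_top y))
  refine hg' (mem_cen1_comm.1 (mem_of_mul_mem_cop (y := v⁻¹) (mem_cen1.1 (k (V.inv_mem hv))).symm
    (cop_pp hP (V.inv_mem hv) c).symm ?_))
  rwa [← e', mul_inv_cancel_right]

theorem npc_odd (h : CMx N) (h2 : p ≠ 2) (hO : Op p N ≤ cen N) : NPC p N := by
  obtain ⟨P, hP⟩ := exists_syl p N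
  by_cases hc : P ≤ cen N
  · exact npc_burnside hP (inf_le_left.trans (le_cen_symm hc))
  obtain ⟨x, hx, hx', k⟩ := nilp_exists_comm_le (S := P) (U := P ⊓ cen N) hP.2.isNilpotent le_rfl
    (inf_lt_left.2 hc) (le_nrm_self P) (nrm_inf (le_nrm_self P) (h.nrm_cen P))
  replace hx' : x ∉ cen N := fun a => hx' ⟨hx, a⟩
  have xN := hP.1 hx
  have M := h.h x xN hx'
  have nA : cen1 x ≤ nrm (N ⊓ cen1 x) := nrm_inf (le_top.trans h.n) (le_nrm_self _)
  have px : IsPGroup p (zpowers x) := hP.2.to_le (zpowers_le.2 hx)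
  have PM : P ≤ cen1 x := by
    by_contra a
    have n : ⊤ ≤ nrm (N ⊓ cen1 x) := top_nrm_of_sup (coat_sup M a) nA (le_nrm_of_cj_le fun g hg c hc => by
      obtain ⟨c, ⟨c1, c2⟩, rfl⟩ := mem_cj'.1 hc
      refine ⟨conj_mem h.n (mem_top g) c1, mem_cen1.2 ?_⟩
      have z := mem_cen.1 (k g⁻¹ (P.inv_mem hg)).2 _ c1
      have c3 : c * x = x * c := mem_cen1.1 c2
      rw [commutatorElement_def, inv_inv] at z
      have c4 : Commute c x := c3
      have c5 : Commute c (g⁻¹ * x⁻¹ * g) := by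
        have := c4.inv_right.mul_right (show Commute c _ from z)
        rwa [show x⁻¹ * (x * g⁻¹ * x⁻¹ * g) = g⁻¹ * x⁻¹ * g by group] at this
      have c6 := c5.inv_right.eq
      rw [show (g⁻¹ * x⁻¹ * g)⁻¹ = g⁻¹ * x * g by group] at c6
      calc g * c * g⁻¹ * x = g * (c * (g⁻¹ * x * g)) * g⁻¹ := by group
        _ = x * (g * c * g⁻¹) := by rw [c6]; group)
    refine hx' (hO (Opi_le_of_normal _ inf_le_left (le_top.trans n) (le_Op (N := zpowers x) ?_ ?_ px (mem_zpowers x))))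
    · exact zpowers_le.2 ⟨xN, self_mem_cen1 x⟩
    · exact le_nrm_of_le_cen (inf_le_right.trans (cen_zpowers x).ge)
  have cA : ∀ y ∈ N ⊓ cen1 x, (orderOf y).Coprime p → y ∈ cen (N ⊓ cen1 x) := fun y hy c =>
    le_cen1_iff.1 (inf_le_right.trans (h.cen1_le xN hx' hy.1 (mem_cen1.1 hy.2).symm (cop_pp hP.2 hx c)))
  have PA : P ≤ N ⊓ cen1 x := le_inf hP.1 PM
  have sA := hP.mono PA inf_le_left
  have MP : cen1 x ≤ nrm P := by
    rw [← Op_eq_of_sylow sA (sA.le_of_coprime (le_nrm_self P) fun y hy c => cen_le_nrm P (cen_anti PA (cA y hy c)))]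
    exact nrm_Opi _ nA
  refine npc_iff.1 (H2.glauberman_thompson h2 (.inl rfl) hP (npc_iff.2 ?_))
  rcases M.le_iff.1 (H2.nrm_ZJ (n := 0) MP) with e | e
  · refine (hx' (hO (le_Op ((H2.ZJ_le P).trans hP.1) (le_top.trans e.ge) (hP.2.to_le (H2.ZJ_le P))
      (H2.Om_center_le_ZJ (mem_Om ⟨hx, le_cen1_iff.1 PM⟩ (pow_zero x)))))).elim
  · rw [e]
    refine npc_of_forall fun y hy c => le_Op' (zpowers_le.2 hy) (le_nrm_of_le_cen ?_) (by rwa [Nat.card_zpowers])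
      (mem_zpowers y)
    rw [cen_zpowers]; exact le_cen1_iff.2 (cA y hy c)

omit hp in
theorem syl_Op (h : ∀ p, p.Prime → p ≠ q → NPC p N) [Fact q.Prime] : IsSylowIn q (Op q N) N := by
  have := hall_of_npcs (π := {q}ᶜ) (H := N) fun p hp hq => h p hp hq
  rw [compl_compl] at this
  exact hall_single.1 this

omit hp in
theorem exists_Op (h : CMx N) (hc : ¬ N ≤ cen N) : ∃ p, p.Prime ∧ ¬ Op p N ≤ cen N := by
  by_contra! a
  have o : ∀ p, p.Prime → p ≠ 2 → NPC p N := fun p hp h2 => by haveI := Fact.mk hp; exact h.npc_odd h2 (a p hp)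
  have t : NPC 2 N := npc_burnside (syl_Op o) (inf_le_left.trans (le_cen_symm (a 2 Nat.prime_two)))
  refine hc (le_of_sylows_le fun q hq _ => ?_)
  haveI := Fact.mk hq
  exact ⟨_, syl_Op fun p hp _ => if e : p = 2 then e ▸ t else o p hp e, a q hq⟩

section
variable (h : CMx N) (hy : y ∈ N) (hy' : y ∉ cen N) (c : (orderOf y).Coprime p) (hO : ¬ Op p N ≤ cen N)
include h hy hy' c hO

theorem sup_Op : cen1 y ⊔ Op p N = ⊤ :=
  coat_sup (h.h y hy hy') fun a => hO (h.le_cen_of_normal (Opi_le _ _) (h.nrm_Op p ⊤) (isPGroup_Op p N) hy hy' c a)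

theorem inf_Op : Op p N ⊓ cen1 y ≤ cen N := by
  refine h.le_cen_of_normal (inf_le_left.trans (Opi_le _ _)) (top_nrm_of_sup (h.sup_Op hy hy' c hO)
    (nrm_inf (h.nrm_Op p _) (le_nrm_self _)) (le_nrm_of_comm_le' inf_le_left ?_))
    ((isPGroup_Op p N).to_le inf_le_left) hy hy' c inf_le_right
  exact le_inf (comm_le_of_le le_rfl le_rfl) (((comm_le_Phi (isPGroup_Op p N).isNilpotent).trans
    (h.Phi_le (Opi_le _ _) (h.nrm_Op p ⊤))).trans (cen_le_cen1 hy))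

theorem syl : IsSylowIn p (Op p N) N := by
  have e := h.sup_Op hy hy' c hO
  obtain ⟨S, hS⟩ := exists_syl p (cen1 y ⊓ N)
  have l : S ≤ Op p N := fun u hu => by
    have pu : IsPGroup p (zpowers u) := hS.2.to_le (zpowers_le.2 hu)
    have uN := (hS.1 hu).2
    by_cases a : u ∈ cen N
    · exact le_Op (zpowers_le.2 uN) (le_nrm_of_le_cen (le_cen_symm (zpowers_le.2 a))) pu (mem_zpowers u)
    · have k := h.cen1_le hy hy' uN (mem_cen1.1 (hS.1 hu).1).symm (cop_pp hS.2 hu c).symm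
      have n : ⊤ ≤ nrm (zpowers u ⊔ Op p N) := top_nrm_of_sup e
        (nrm_sup (le_nrm_of_le_cen (k.trans (cen_zpowers u).ge)) (h.nrm_Op p _)) (le_sup_right.trans (le_nrm_self _))
      exact le_Op (sup_le (zpowers_le.2 uN) (Opi_le _ _)) (le_top.trans n)
        (isPGroup_sup (h.nrm_Op p _) pu (isPGroup_Op p N)) (mem_sup_left (mem_zpowers u))
  have e2 : cen1 y ⊓ N ⊔ Op p N = N := by
    rw [← (prm_of_nrm (h.nrm_Op p (cen1 y))).modular' (Opi_le _ _), e, top_inf_eq]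
  refine ⟨Opi_le _ _, isPGroup_Op p N, fun d => hS.3 (d.trans ?_)⟩
  have := relIndex_sup_nrm (h.nrm_Op p (cen1 y ⊓ N))
  rw [e2] at this
  rw [this]
  exact relIndex_dvd_of_le_left _ l

theorem mem_sup_of {g : G} (hg : g ∈ N) (k : ∀ b ∈ zpowers g, (orderOf b).Coprime p → b ∈ cen N) :
    g ∈ Op p N ⊔ N ⊓ cen N := by
  obtain ⟨a, b, ha, hb, rfl, ⟨j, hj⟩, cb⟩ := H2.exists_p_part (p := p) g (orderOf_pos g).ne'
  refine mul_mem (mem_sup_left ((h.syl hy hy' c hO).le_of_le_normalizer (Q := zpowers a)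
    (isPGroup_zpowers (hj ▸ pow_orderOf_eq_one a)) (zpowers_le.2 (zpowers_le.2 hg ha)) (h.nrm_Op p _) (mem_zpowers a)))
    (mem_sup_right ⟨zpowers_le.2 hg hb, k b hb cb⟩)

theorem le_sup : N ≤ Op p N ⊔ N ⊓ cen N ⊔ zpowers y := by
  obtain ⟨x, hx, hx'⟩ := SetLike.not_le_iff_exists.1 hO
  have n : ⊤ ≤ nrm (Op p N ⊔ N ⊓ cen N ⊔ zpowers y) := top_nrm_of_sup (h.sup_Op hy hy' c hO)
    (nrm_sup (nrm_sup (h.nrm_Op p _) (h.nrm_Z _)) (le_nrm_of_le_cen (cen_zpowers y).ge))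
    ((le_sup_left.trans le_sup_left).trans (le_nrm_self _))
  have e := coat_sup (h.h x (Opi_le _ _ hx) hx') (A := Op p N ⊔ N ⊓ cen N ⊔ zpowers y) fun a =>
    hx' (h.inf_Op hy hy' c hO ⟨hx, mem_cen1_comm.1 (a (mem_sup_right (mem_zpowers y)))⟩)
  have := (prm_of_nrm (A := cen1 x) (le_top.trans n)).modular' (C := N)
    (sup_le (sup_le (Opi_le _ _) inf_le_left) (zpowers_le.2 hy))
  rw [e, top_inf_eq] at this
  refine this.le.trans (sup_le (fun g hg => mem_sup_left (h.mem_sup_of hy hy' c hO hg.2 fun b hb cb => ?_)) le_rfl)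
  by_contra a
  exact hx' (h.inf_Op (zpowers_le.2 hg.2 hb) a cb hO ⟨hx, mem_cen1_comm.1 (zpowers_le.2 hg.1 hb)⟩)

theorem mem_of_comm {v : G} (hv : v ∈ Op p N) (k : ⁅v, y⁆ ∈ cen N) : v ∈ cen N := by
  refine h.inf_Op hy hy' c hO ⟨hv, mem_cen1.2 (commutatorElement_eq_one_iff_mul_comm.1 ?_)⟩
  have m : ⁅v, y⁆ ∈ Op p N := by
    rw [commutatorElement_def, mul_assoc, mul_assoc, ← mul_assoc y]
    exact mul_mem hv (conj_mem (h.nrm_Op p ⊤) (mem_top y) (inv_mem hv))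
  refine eq_one_of_coprime (isPGroup_Op p N) m (c.coprime_dvd_left (orderOf_dvd_of_pow_eq_one ?_))
  have e : Commute ⁅v, y⁆ y := (mem_cen.1 k y hy).symm
  have e2 : v * y * v⁻¹ = ⁅v, y⁆ * y := by rw [commutatorElement_def]; group
  have e3 := congrArg (· ^ orderOf y) e2
  simp only [conj_pow, e.mul_pow, pow_orderOf_eq_one, mul_one, mul_inv_cancel] at e3
  exact e3.symm

end

theorem ea_im {Γ : Type*} [Group Γ] {f : N →* Γ} (hk : kr f = N ⊓ cen N) (h : CMx N) :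
    IsElementaryAbelian p (im f (Op p N)) := by
  have F := h.Phi_le (Opi_le _ _) (h.nrm_Op p ⊤)
  have F' : Phi (Op p N) ≤ kr f := hk ▸ le_inf ((H7.Phi_le _).trans (Opi_le _ _)) F
  refine ⟨H7.isComm_iff.2 ((im_le_cen_iff (Opi_le _ _) (Opi_le _ _)).2
    ((comm_le_Phi (isPGroup_Op p N).isNilpotent).trans F')), fun a ha => ?_⟩
  obtain ⟨v, hv, vN, rfl⟩ := mem_im.1 ha
  rw [← ev_pow vN, ev_eq_one_iff (N.pow_mem vN p)]
  exact F' (pow_mem_Phi (isPGroup_Op p N) hv)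

omit hp in
theorem exists_q (hy : y ∈ N) (hy' : y ∉ cen N) (c : (orderOf y).Coprime p) :
    ∃ q, q.Prime ∧ q ≠ p ∧ ∃ y ∈ N, y ∉ cen N ∧ (orderOf y).Coprime p ∧ y ^ q ∈ cen N := by
  by_contra! a
  refine hy' (zpowers_le_of_ppow fun q hq z hz pz => ?_)
  by_contra z'
  haveI := Fact.mk hq
  obtain ⟨w, hw, w1, w2⟩ := exists_last_pow pz (mem_zpowers z) z'
  have wy : w ∈ zpowers y := zpowers_le.2 hz hw
  have cw : (orderOf w).Coprime p := c.coprime_dvd_left (orderOf_dvd_of_mem_zpowers wy)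
  refine a q hq ?_ w (zpowers_le.2 hy wy) w1 cw w2
  rintro rfl
  exact w1 (eq_one_of_coprime pz hw cw ▸ one_mem _)

omit hp in
theorem main {Γ : Type*} [Group Γ] [Finite Γ] {f : N →* Γ} (hf : Function.Surjective f) (hk : kr f = N ⊓ cen N)
    (h : CMx N) : (∃ p, p.Prime ∧ IsElementaryAbelian p (⊤ : Subgroup Γ)) ∨
    ∃ p q, p.Prime ∧ q.Prime ∧ p ≠ q ∧ ∃ K Q : Subgroup Γ, IsElementaryAbelian p K ∧ K.Normal ∧ K ≠ ⊥ ∧ ord Q = q ∧
      IsComplement' K Q ∧ (∀ x ∈ Q, x ≠ 1 → K ⊓ cen1 x = ⊥) ∧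
      (N = ⊤ → ∀ H : Subgroup Γ, H ≠ ⊤ → IsMulCommutative H) := by
  have t := im_dom_of_surj hf
  by_cases hc : N ≤ cen N
  · have : (⊤ : Subgroup Γ) = ⊥ := t ▸ (im_eq_bot_iff le_rfl).2 (hk ▸ le_inf le_rfl hc)
    refine .inl ⟨2, Nat.prime_two, this ▸ ⟨inferInstance, fun a ha => ?_⟩⟩
    rw [mem_bot.1 ha, one_pow]
  obtain ⟨p, hp, hO⟩ := h.exists_Op hc
  haveI := Fact.mk hp
  have ea := ea_im (p := p) hk h
  by_cases hy : ∀ y ∈ N, (orderOf y).Coprime p → y ∈ cen N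
  · refine .inl ⟨p, hp, ?_⟩
    obtain ⟨P, hP⟩ := exists_syl p N
    have e := Op_eq_of_sylow hP (hP.le_of_coprime (le_nrm_self P) fun y a b => cen_le_nrm P (cen_anti hP.1 (hy y a b)))
    have l : N ≤ Op p N ⊔ kr f :=
      hP.le_of_coprime (e.ge.trans le_sup_left) fun y a b => mem_sup_right (hk ▸ ⟨a, hy y a b⟩)
    rwa [top_le_iff.1 (t.ge.trans ((im_le_im_iff le_rfl (Opi_le _ _)).2 l))] at ea
  push Not at hy
  obtain ⟨y, hy, c, hy'⟩ := hy
  obtain ⟨q, hq, ne, y, hy, hy', c, yq⟩ := exists_q hy hy' c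
  haveI := Fact.mk hq
  have y1 : ∀ {y}, y ∈ N → (ev f y = 1 ↔ y ∈ cen N) := fun hy => by
    rw [ev_eq_one_iff hy, hk]; exact ⟨fun a => a.2, fun a => ⟨hy, a⟩⟩
  have oy : orderOf (ev f y) = q :=
    orderOf_eq_prime (by rw [← ev_pow hy, y1 (N.pow_mem hy q)]; exact yq) (mt (y1 hy).1 hy')
  have oQ : ord (zpowers (ev f y)) = q := by rw [Nat.card_zpowers, oy]
  have pK : IsPGroup p (im f (Op p N)) := isPGroup_iff_mem.2 fun a ha => ⟨1, by rw [pow_one, ea.2 a ha]⟩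
  have nK : (im f (Op p N)).Normal := normal_of (t ▸ im_le_nrm f (h.nrm_Op p N))
  have sp : ∀ {y}, y ∈ N → y ∉ cen N → (orderOf y).Coprime p → im f (Op p N) ⊔ zpowers (ev f y) = ⊤ := fun hy hy' c => by
    rw [← im_zpowers hy, ← im_sup_kr (Opi_le _ _), ← im_sup (sup_le (Opi_le _ _) (kr_le f)) (zpowers_le.2 hy), hk]
    exact top_le_iff.1 (t.ge.trans (im_mono f (h.le_sup hy hy' c hO)))
  have fp : ∀ {y}, y ∈ N → y ∉ cen N → (orderOf y).Coprime p → im f (Op p N) ⊓ cen1 (ev f y) = ⊥ := fun hy hy' c => by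
    refine eq_bot_iff.2 fun a ha => ?_
    obtain ⟨v, hv, vN, rfl⟩ := mem_im.1 ha.1
    refine mem_bot.2 ((y1 vN).2 (h.mem_of_comm hy hy' c hO hv ((y1 ?_).1 ?_)))
    · exact mul_mem (mul_mem (mul_mem vN hy) (inv_mem vN)) (inv_mem hy)
    · rw [ev_comm vN hy]; exact commutatorElement_eq_one_iff_mul_comm.2 (mem_cen1.1 ha.2)
  refine .inr ⟨p, q, hp, hq, ne.symm, _, zpowers (ev f y), ea, nK, fun e => hO ?_, oQ, ?_, fun x hx x1 => ?_, fun e H hH => ?_⟩
  · exact ((im_eq_bot_iff (Opi_le _ _)).1 e).trans (hk.le.trans inf_le_right)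
  · exact isComplement'_of_disjoint_and_mul_eq_univ (disjoint_iff.2 (inf_eq_bot_of_isPGroup pK
      (oQ ▸ (Nat.coprime_primes hq hp).2 ne))) (by rw [← normal_mul, sp hy hy' c, coe_top])
  · obtain ⟨k, rfl⟩ := hx
    have m : y ^ k ∈ zpowers y := ⟨k, rfl⟩
    have := fp (N.zpow_mem hy k) (fun a => x1 (by rw [← (y1 (N.zpow_mem hy k)).2 a, ev_zpow hy]))
      (c.coprime_dvd_left (orderOf_dvd_of_mem_zpowers m))
    rwa [ev_zpow hy] at this
  · by_cases l : pre f H ≤ Op p N ⊔ N ⊓ cen N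
    · refine H7.isComm_of_le ea.1 ?_
      rw [← im_pre_of_le (f := f) (A := N) (B := H) (t ▸ le_top), im_le_im_iff (pre_le f H) (Opi_le _ _), hk]
      exact l
    obtain ⟨g, hg, hg'⟩ := SetLike.not_le_iff_exists.1 l
    obtain ⟨b, hb, cb, b'⟩ : ∃ b ∈ zpowers g, (orderOf b).Coprime p ∧ b ∉ cen N := by
      by_contra! a
      exact hg' (h.mem_sup_of hy hy' c hO (pre_le f H hg) a)
    have bH : b ∈ pre f H := zpowers_le.2 hg hb
    have bN := pre_le f H bH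
    have l2 : cen1 b ≤ kr f ⊔ zpowers b := by
      have e1 : cen1 b ≤ (N ⊓ cen N ⊔ zpowers b ⊔ Op p N) ⊓ cen1 b := le_inf ((le_top.trans e.ge).trans
        ((h.le_sup bN b' cb hO).trans (by rw [sup_assoc, sup_comm]))) le_rfl
      rw [modular (h.nrm_Op p _) (sup_le (inf_le_right.trans (cen_le_cen1 bN)) (zpowers_le.2 (self_mem_cen1 b)))] at e1
      rw [hk]
      exact e1.trans (sup_le le_rfl ((le_inf (inf_le_left.trans (Opi_le _ _)) (h.inf_Op bN b' cb hO)).trans le_sup_left))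
    have l3 : kr f ⊔ zpowers b ≤ pre f H := sup_le (kr_le_pre f H) (zpowers_le.2 bH)
    have l4 := ((h.h b bN b').le_iff.1 (l2.trans l3)).resolve_left fun a => hH (top_le_iff.1 (t.ge.trans
      ((im_mono f (le_top.trans a.ge)).trans (im_pre_le f H))))
    refine H7.isComm_of_le (B := zpowers (ev f b)) inferInstance ?_
    rw [← im_pre_of_le (f := f) (A := N) (B := H) (t ▸ le_top), ← im_zpowers bN,
      im_le_im_iff (pre_le f H) (zpowers_le.2 bN), sup_comm, l4]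
    exact l2

end CMx
end H1B
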