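import Cfsg.Agent.H1.BG3a
import Cfsg.Agent.H1.Two5
import Cfsg.Agent.H1.U1
import Cfsg.Agent.H1.Action2

/-! Camina pairs. -/

set_option linter.unusedSectionVars false

namespace H1B
open Subgroup Cfsg H7
open H2 (cj IsSylowIn)

universe u
variable {G Γ : Type*} [Group G] [Finite G] [Group Γ] [Finite Γ] {f : G →* Γ} {p : ℕ} {g x : G} {T K : Subgroup G}

/-- `(G, ker f)` is a Camina pair -/
structure Cam (f : G →* Γ) : Prop where
  sj : Function.Surjective f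
  ne : f.ker ≠ ⊥
  c : ∀ g ∉ f.ker, ∀ n ∈ f.ker, ∃ x, x * g * x⁻¹ = g * n

theorem relIndex_cen1_orb (S : Subgroup G) (g : G) :
    (cen1 g).relIndex S = {y | ∃ s ∈ S, s * g * s⁻¹ = y}.ncard := by
  refine Nat.card_congr (Equiv.ofBijective (fun q => ⟨q.out * g * (q.out : G)⁻¹, _, q.out.2, rfl⟩) ⟨fun q r k => ?_, ?_⟩)
  · rw [← q.out_eq', ← r.out_eq', QuotientGroup.eq, mem_subgroupOf, mem_cen1]
    have k : (q.out : G) * g * (q.out : G)⁻¹ = r.out * g * (r.out : G)⁻¹ := congrArg Subtype.val k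
    calc ((q.out : G)⁻¹ * r.out) * g = (q.out : G)⁻¹ * (r.out * g * (r.out : G)⁻¹) * r.out := by group
      _ = g * ((q.out : G)⁻¹ * r.out) := by rw [← k]; group
  · rintro ⟨_, s, hs, rfl⟩
    refine ⟨QuotientGroup.mk ⟨s, hs⟩, Subtype.ext ?_⟩
    obtain ⟨c, hc⟩ := QuotientGroup.mk_out_eq_mul ((cen1 g).subgroupOf S) ⟨s, hs⟩
    have k : ((c : S) : G) * g = g * (c : S) := mem_cen1.1 c.2
    show (Quotient.out _ : S) * g * ((Quotient.out _ : S) : G)⁻¹ = _
    rw [hc, coe_mul, mul_assoc s, k]; group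

theorem ncard_coset (g : G) (K : Subgroup G) : ((g * ·) '' K).ncard = ord K :=
  Set.ncard_image_of_injective _ (mul_right_injective g)

theorem orb_sub {S : Subgroup G} (h : S ≤ (cen1 (f g)).comap f) (hg : g ∈ T) (l : S ≤ T) :
    {y | ∃ s ∈ S, s * g * s⁻¹ = y} ⊆ (g * ·) '' (T ⊓ f.ker : Subgroup G) := by
  rintro _ ⟨s, hs, rfl⟩
  refine ⟨g⁻¹ * (s * g * s⁻¹), ⟨T.mul_mem (T.inv_mem hg) (T.mul_mem (T.mul_mem (l hs) hg) (T.inv_mem (l hs))), ?_⟩, by simp⟩
  show f _ = 1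
  rw [map_mul, map_mul, map_mul, mem_cen1.1 (h hs), map_inv, map_inv]; group

namespace Cam

theorem card_X (h : Cam f) (hg : g ∉ f.ker) : ord ((cen1 (f g)).comap f) = ord f.ker * ord (cen1 g) := by
  have l : cen1 g ≤ (cen1 (f g)).comap f := fun c hc => mem_cen1.2 (by rw [← map_mul, mem_cen1.1 hc, map_mul])
  rw [← relIndex_mul_card' l, relIndex_cen1_orb, ← ncard_coset g f.ker]
  refine congrArg (fun s : Set G => s.ncard * ord (cen1 g))
    (((orb_sub (f := f) le_rfl (mem_top g) le_top).antisymm ?_).trans (by rw [top_inf_eq]))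
  rintro _ ⟨n, hn, rfl⟩
  obtain ⟨x, hx⟩ := h.c g hg n hn.2
  refine ⟨x, mem_cen1.2 ?_, hx⟩
  have := congrArg f hx
  rwa [map_mul, map_mul, map_mul, show f n = 1 from hn.2, mul_one, map_inv, mul_inv_eq_iff_eq_mul] at this

theorem card_cen (h : Cam f) (hg : g ∉ f.ker) : ord (cen1 g) = ord (cen1 (f g)) := by
  have e := h.card_X hg
  rw [← relIndex_mul_card' (ker_le_comap f _), mul_comm, ← MonoidHom.comap_bot, relIndex_comap,
    map_comap_eq_self_of_surjective h.sj, relIndex_bot_left] at e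
  exact (Nat.eq_of_mul_eq_mul_left (card_pos' _) e).symm

theorem sub (h : Cam f) (e : T ⊔ f.ker = ⊤) (ne : T ⊓ f.ker ≠ ⊥) : Cam (f.comp T.subtype) := by
  refine ⟨fun y => ?_, fun k => ne (eq_bot_iff.2 fun n hn => ?_), fun g hg n hn => ?_⟩
  · obtain ⟨y, rfl⟩ := h.sj y
    obtain ⟨t, ht, n, hn, rfl⟩ := (mem_sup_nrm (le_nrm_of_normal _ _)).1 (e.ge (mem_top y))
    exact ⟨⟨t, ht⟩, by rw [map_mul, show f n = 1 from hn, mul_one]; rfl⟩
  · exact congrArg Subtype.val (mem_bot.1 (k.le (show (⟨n, hn.1⟩ : T) ∈ _ from hn.2)))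
  set X := (cen1 (f g)).comap f
  have e1 : T ⊓ X ⊔ f.ker = X := by
    rw [← (prm_of_nrm (le_nrm_of_normal T f.ker)).modular' (ker_le_comap f _), e, top_inf_eq]
  have e2 := card_sup_mul_card_inf (le_nrm_of_normal (T ⊓ X) f.ker)
  rw [e1, card_X (f := f) (g := (g : G)) h hg, inf_assoc, inf_eq_right.2 (ker_le_comap f _), mul_assoc, mul_comm _ (ord f.ker)] at e2
  have e3 := relIndex_mul_card_inf (cen1 (g : G)) (T ⊓ X)
  rw [← Nat.eq_of_mul_eq_mul_left (card_pos' _) e2] at e3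
  have e4 : ord (T ⊓ f.ker : Subgroup G) ≤ (cen1 (g : G)).relIndex (T ⊓ X) := by
    have := card_le_of_le (inf_le_left : cen1 (g : G) ⊓ (T ⊓ X) ≤ _)
    have := card_pos' (cen1 (g : G))
    by_contra! k
    nlinarith
  rw [relIndex_cen1_orb, ← ncard_coset (g : G) (T ⊓ f.ker)] at e4
  obtain ⟨s, hs, k⟩ := (Set.eq_of_subset_of_ncard_le (orb_sub inf_le_right g.2 inf_le_left) e4).ge ⟨n, ⟨n.2, hn⟩, rfl⟩
  exact ⟨⟨s, hs.1⟩, Subtype.ext k⟩

theorem card_sub : ord (f.comp T.subtype).ker = ord (T ⊓ f.ker : Subgroup G) := by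
  rw [← MonoidHom.comap_ker, ← card_map_subtype, comap_subtype, subgroupOf_map_subtype, inf_comm]

theorem card_quo [K.Normal] (l : K ≤ f.ker) : ord (QuotientGroup.lift K f l).ker = K.relIndex f.ker := by
  rw [QuotientGroup.ker_lift, ← relIndex_bot_left, ← relIndex_comap, MonoidHom.comap_bot, QuotientGroup.ker_mk']

theorem quo (h : Cam f) [K.Normal] (l : K ≤ f.ker) (ne : K.relIndex f.ker ≠ 1) : Cam (QuotientGroup.lift K f l) := by
  refine ⟨fun y => ?_, fun k => ne (by rw [← card_quo l, k, Subgroup.card_bot]), fun g hg n hn => ?_⟩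
  · obtain ⟨y, rfl⟩ := h.sj y
    exact ⟨y, rfl⟩
  obtain ⟨g, rfl⟩ := QuotientGroup.mk_surjective g
  obtain ⟨n, rfl⟩ := QuotientGroup.mk_surjective n
  obtain ⟨x, hx⟩ := h.c g hg n hn
  exact ⟨x, congrArg QuotientGroup.mk hx⟩

theorem ord_dvd (h : Cam f) (hg : g ∉ f.ker) (hx : x ∈ f.ker ⊓ cen1 g) : orderOf x ∣ orderOf g := by
  obtain ⟨y, hy⟩ := h.c g hg x hx.1
  have e3 := congrArg (· ^ orderOf g) hy
  simp only [conj_pow, (show Commute g x from (mem_cen1.1 hx.2).symm).mul_pow, pow_orderOf_eq_one, mul_one, one_mul,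
    mul_inv_cancel] at e3
  exact orderOf_dvd_of_pow_eq_one e3.symm

theorem fpf (h : Cam f) (hg : g ∉ f.ker) (c : (orderOf g).Coprime (ord f.ker)) : f.ker ⊓ cen1 g = ⊥ :=
  eq_bot_iff.2 fun _ hx => orderOf_eq_one_iff.1 (Nat.eq_one_of_dvd_coprimes c (h.ord_dvd hg hx) (orderOf_dvd_card' hx.1))

variable [hp : Fact p.Prime]

theorem cyc (h : Cam f) (d : ¬ p ∣ ord f.ker) (B : Subgroup Γ) (hB : IsPGroup p B) (c : IsMulCommutative B) :
    IsCyclic B := by
  obtain ⟨P, hP⟩ := exists_syl p (B.comap f)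
  have i := inf_eq_bot_of_isPGroup hP.2 (coprime_iff_not_dvd.2 d)
  have e := hP.map f
  rw [map_comap_eq_self_of_surjective h.sj] at e
  have co := (coprime_of_isPGroup hP.2 (coprime_iff_not_dvd.2 d)).symm
  haveI : IsMulCommutative P := H7.isComm_iff'.2 fun a ha b hb => by
    rw [← mul_inv_eq_one, ← mem_bot, ← i]
    refine ⟨P.mul_mem (P.mul_mem ha hb) (P.inv_mem (P.mul_mem hb ha)), ?_⟩
    show f _ = 1
    rw [map_mul, map_inv, map_mul, map_mul, H7.isComm_iff'.1 c _ (hP.1 ha) _ (hP.1 hb), mul_inv_cancel]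
  by_cases k : IsCyclic P
  · rw [e.eq_of_le hB e.1 le_rfl]
    exact isCyclic_of_surjective _ (f.subgroupMap_surjective P)
  obtain ⟨a, ha, a1, k⟩ := H1.coprime_exists_centralizer_ne_bot k (le_nrm_of_normal _ _) co h.ne
  exact (k (h.fpf (fun a2 => a1 (mem_bot.1 (i.le ⟨ha, a2⟩))) (co.coprime_dvd_left (orderOf_dvd_card' ha)))).elim

theorem exists_lift (h : Function.Surjective f) {y : Γ} (hy : IsPGroup p (zpowers y)) :
    ∃ a, f a = y ∧ IsPGroup p (zpowers a) := by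
  obtain ⟨g, rfl⟩ := h y
  obtain ⟨a, b, -, ⟨k, rfl⟩, e, ⟨j, hj⟩, c⟩ := H2.exists_p_part (p := p) g (orderOf_pos g).ne'
  refine ⟨a, ?_, isPGroup_zpowers (hj ▸ pow_orderOf_eq_one a)⟩
  have := eq_one_of_coprime hy (g := f (g ^ k)) ⟨k, (map_zpow f g k).symm⟩ (c.coprime_dvd_left (orderOf_map_dvd f _))
  conv_rhs => rw [e, map_mul, this, mul_one]

theorem not_dvd (h : Cam f) (c : ∀ B : Subgroup Γ, IsPGroup p B → IsMulCommutative B → IsCyclic B)
    (d : p ∣ Nat.card Γ) : ¬ p ∣ ord f.ker := fun d' => by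
  haveI : Nonempty {y : Γ // IsPGroup p (zpowers y)} := ⟨⟨1, isPGroup_zpowers (k := 0) (one_pow _)⟩⟩
  obtain ⟨⟨y, hy⟩, m⟩ := Finite.exists_max fun y : {y : Γ // IsPGroup p (zpowers y)} => orderOf y.1
  obtain ⟨z, hz⟩ := exists_prime_orderOf_dvd_card' p d
  have y1 : y ≠ 1 := fun e => by
    have : orderOf z ≤ orderOf y := m ⟨z, isPGroup_zpowers (k := 1) (by rw [pow_one, ← hz, pow_orderOf_eq_one])⟩
    rw [hz, e, orderOf_one] at this
    exact hp.1.one_lt.not_ge this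
  obtain ⟨S, hS, l⟩ := exists_syl_ge hy (zpowers_le.2 (self_mem_cen1 y))
  have e : S ≤ zpowers y := fun s hs => by
    have k : zpowers s ≤ cen (zpowers y) := by rw [cen_zpowers]; exact zpowers_le.2 (hS.1 hs)
    have pA := hS.2.to_le (sup_le (zpowers_le.2 hs) l)
    obtain ⟨w, hw⟩ := H7.cyc_iff.1 (c _ pA (H7.isComm_iff.2 (le_cen_sup (sup_le (H7.isComm_iff.1 inferInstance)
      (le_cen_symm k)) (sup_le k (H7.isComm_iff.1 inferInstance)))))
    have : orderOf w ≤ orderOf y := m ⟨w, hw ▸ pA⟩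
    rw [← Nat.card_zpowers, ← Nat.card_zpowers, ← hw] at this
    exact (H7.eq_of_le_of_card_le le_sup_right this).ge (mem_sup_left (mem_zpowers s))
  obtain ⟨a, rfl, pa⟩ := exists_lift h.sj hy
  obtain ⟨R, hR, n⟩ := exists_syl_inv pa (le_nrm_of_normal _ f.ker)
  have D1 := pgroup_inf_cen_ne_bot' pa hR.2 n (syl_ne_bot hR d')
  have pA := isPGroup_sup (le_nrm_of_le_cen (inf_le_right : R ⊓ cen (zpowers a) ≤ _)) (hR.2.to_le inf_le_left) pa
  have lA : R ⊓ cen (zpowers a) ⊔ zpowers a ≤ cen1 a :=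
    sup_le (inf_le_right.trans (cen_zpowers a).le) (zpowers_le.2 (self_mem_cen1 a))
  have e1 := card_dvd_of_le lA
  rw [h.card_cen y1, ← relIndex_mul_card' hS.1] at e1
  have e2 := (Nat.le_of_dvd (card_pos' _) ((coprime_of_isPGroup pA (coprime_iff_not_dvd.2 hS.3)).symm.dvd_of_dvd_mul_left
    e1)).trans (card_le_of_le e)
  have e3 := relIndex_mul_card_inf f.ker (R ⊓ cen (zpowers a) ⊔ zpowers a)
  have e4 : ord (zpowers (f a)) ≤ f.ker.relIndex (R ⊓ cen (zpowers a) ⊔ zpowers a) := by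
    rw [← MonoidHom.comap_bot, relIndex_comap, relIndex_bot_left, ← MonoidHom.map_zpowers]
    exact card_le_of_le (map_mono le_sup_right)
  have e5 := H7.card_lt_of_lt (bot_lt_iff_ne_bot.2 fun k => D1 (eq_bot_iff.2 (k ▸
    le_inf (inf_le_left.trans hR.1) (le_sup_left : _ ≤ R ⊓ cen (zpowers a) ⊔ zpowers a))))
  rw [Subgroup.card_bot] at e5
  have := card_pos' (zpowers (f a))
  nlinarith

theorem key {G' : Type*} [Group G'] [Finite G'] {f' : G' →* Γ} (h : Cam f) (h' : Cam f') (d : p ∣ Nat.card Γ)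
    (d' : p ∣ ord f.ker) : p ∣ ord f'.ker :=
  by_contra fun k => h.not_dvd (h'.cyc k) d d'

omit hp in
theorem nilp (h : Cam f) {s : ℕ} (hs : s.Prime) (d : s ∣ Nat.card Γ) (d' : ¬ s ∣ ord f.ker) :
    Group.IsNilpotent f.ker := by
  haveI := Fact.mk hs
  obtain ⟨y, hy⟩ := exists_prime_orderOf_dvd_card' s (d.trans (card_dvd_of_surjective f h.sj))
  refine nilp_of_fpf (R := zpowers y) (le_nrm_of_normal _ _) (by rwa [Nat.card_zpowers, hy]) ?_
  rw [cen_zpowers]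
  exact h.fpf (fun k => d' (hy ▸ orderOf_dvd_card' k)) (hy ▸ (coprime_iff_not_dvd.2 d').symm)

omit hp in
theorem main (hΓ : ∀ p, ∃ s, s.Prime ∧ s ≠ p ∧ s ∣ Nat.card Γ) (n : ℕ) : ∀ {G : Type u} [Group G] [Finite G] (f : G →* Γ),
    Nat.card G = n → Cam f → ∀ p, p.Prime → p ∣ Nat.card Γ → p ∣ ord f.ker → IsPGroup p f.ker := by
  induction n using Nat.strong_induction_on with | _ n ih =>
  intro G _ _ f hn h p hp d d'
  haveI := Fact.mk hp
  refine piN_iff_isPGroup.1 fun r hr dr => by_contra fun ne => ?_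
  haveI := Fact.mk hr
  have pr : ∀ {X : Type u} [Group X] [Finite X] {A : Subgroup X} {r}, r.Prime → IsPGroup p A → r ∣ ord A → r = p :=
    fun hr hA k => piN_iff_isPGroup.2 hA _ hr k
  obtain ⟨R, hR⟩ := exists_syl r f.ker
  have R1 := syl_ne_bot hR dr
  have RT : R ≤ nrm R ⊓ f.ker := le_inf (le_nrm_self R) hR.1
  have nR : nrm R = ⊤ := by
    by_contra k
    have h' := h.sub (T := nrm R) (by simpa using syl_frattini hR le_top (le_nrm_of_normal _ _))
      fun e => R1 (eq_bot_iff.2 (e ▸ RT))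
    refine ne (pr hr (ih _ ?_ _ rfl h' p hp d (h.key h' d d')) ?_)
    · rw [← hn, ← card_top (G := G)]; exact H7.card_lt_of_lt (lt_top_iff_ne_top.2 k)
    · rw [card_sub]; exact (dvd_card_of_isPGroup hR.2 R1).trans (card_dvd_of_le RT)
  haveI := normal_of nR.ge
  have i1 : p ∣ R.relIndex f.ker := by
    rw [← relIndex_mul_card' hR.1] at d'
    exact (coprime_of_isPGroup hR.2 ((Nat.coprime_primes hp hr).2 (Ne.symm ne))).dvd_of_dvd_mul_right d'
  have h' := h.quo hR.1 fun e => hp.one_lt.ne' (Nat.dvd_one.1 (e ▸ i1))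
  have p' := ih _ (by
    rw [← hn, card_eq_card_quotient_mul_card_subgroup R]
    exact lt_mul_of_one_lt_right Nat.card_pos ((one_lt_card_iff_ne_bot R).2 R1)) _ rfl h' p hp d (h.key h' d d')
  obtain ⟨s, hs, sp, ds⟩ := hΓ p
  haveI := Fact.mk hs
  have hP := nilp_sylow_Op (p := p) (h.nilp hs ds fun k => sp (pr hs p' (h.key h' ds k)))
  haveI : (Op p f.ker).Normal := normal_of (nrm_Opi _ (le_nrm_of_normal _ _))
  have h'' := h.quo hP.1 fun e => ne (pr hr (hP.2.to_le (relIndex_eq_one.1 e)) dr)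
  exact hP.3 (card_quo hP.1 ▸ h.key h'' d d')

end Cam
end H1B
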