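import Cfsg.Agent.H1.LS6
import Cfsg.Agent.H1.Gaschutz
import Cfsg.Agent.H7.Fc

/-! Isolated `p`-minimal subgroups. -/

set_option linter.unusedSectionVars false

namespace H1B
open Subgroup Cfsg H7
open H1 (ncl)
open scoped commutatorElement

variable {G G' : Type*} [Group G] [Group G'] {A B C D E F H K L M N O P Q R S T U V W X Y Z : Subgroup G} {f : D →* G'}
  {p q r n : ℕ} {a b c g t x y z : G}
variable [Finite G] [hp : Fact p.Prime]

theorem gen_pmin (hS : IsSylowIn p S H) (h1 : H ⊓ nrm S ≤ L) (h2 : ∀ P, S ≤ P → P ≤ H → IsPMinimal p P → P ≤ L) : H ≤ L := by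
  induction H using WellFoundedLT.induction with
  | ind H ih =>
  by_cases c : H ≤ nrm S
  · exact (le_inf le_rfl c).trans h1
  have l : sSup {U | S ≤ U ∧ U < H} ≤ H := sSup_le fun U a => a.2.le
  rcases l.eq_or_lt with e | lt
  · exact e.ge.trans (sSup_le fun U a => ih U a.2 (hS.mono a.1 a.2.le) ((inf_le_inf_right _ a.2.le).trans h1)
      fun P u v => h2 P u (v.trans a.2.le))
  · exact h2 H hS.1 le_rfl ((pmin_iff hS).2 ⟨_, minO_of hS c (le_sSup (And.intro le_rfl (lt_of_le_of_ne hS.1 fun e => c (e ▸ le_nrm_self S)))) lt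
      fun U u v => le_sSup (And.intro u v)⟩)

structure Isl (p : ℕ) (S Q R L : Subgroup G) : Prop where
  syl : IsSylowIn p S ⊤
  qS : Q ≤ S
  sL : S ≤ L
  nQ : L ≤ nrm Q
  alt : ∀ X, S ≤ nrm X → X ≤ L ∨ R ≤ X
  comm : ⁅R, Q⁆ = R
  nS : S ≤ nrm R
  nle : ¬ R ≤ L
  gen : ncl R ⊤ ⊔ L = ⊤

theorem isl_of (hS : IsSylowIn p S ⊤) (hP : S ≤ P) (hm : IsPMinimal p P) (h1 : nrm S ≤ L)
    (h2 : ∀ U, S ≤ U → IsPMinimal p U → U ≠ P → U ≤ L) (h : ¬ Op p L ≤ Op p P) : Isl p S (Op p L) (pRes p P) L := by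
  have sL := (le_nrm_self S).trans h1
  have s := hS.mono hP le_top
  obtain ⟨M, hM⟩ := (pmin_iff s).1 hm
  have qS := Op_le_of_sylow (hS.mono sL le_top)
  have c := (hM.pirr s).comm_eq s qS (sL.trans (le_nrm_Opi _ _)) h
  have k : ∀ H, S ≤ H → ¬ P ≤ H → H ≤ L := fun H a b => gen_pmin (hS.mono a le_top) (inf_le_right.trans h1)
    fun U u v w => h2 U u w fun e => b (e ▸ v)
  refine ⟨hS, qS, sL, le_nrm_Opi _ _, fun X a => or_iff_not_imp_left.2 fun b => ?_, c, hP.trans (nrm_pRes' p P), fun a => ?_, ?_⟩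
  · exact pRes_le_of_le_sup hS.2 a (by_contra fun d => b (le_sup_right.trans (k _ le_sup_left d)))
  · have : IsPGroup p (pRes p P) := (isPGroup_Op p L).to_le (c.ge.trans (comm_le_right (a.trans (le_nrm_Opi _ _))))
    rw [← pRes_eq_bot, pRes_of_le le_rfl (H2.pRes_le P), pRes_eq_bot] at this
    exact (hM.pirr s).1 (pcl_pg this)
  · refine eq_top_iff.2 (gen_pmin hS (inf_le_right.trans (h1.trans le_sup_right)) fun U u _ w => ?_)
    by_cases e : U = P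
    · exact e.le.trans <| syl_le_of_pRes s (H1.le_ncl.trans le_sup_left) (sL.trans le_sup_right)
    · exact (h2 U u w e).trans le_sup_right

theorem Isl.im [Finite G'] (h : Isl p S Q R L) (hD : ⊤ ≤ D) (hf : im f ⊤ = ⊤) (hk : kr f ≤ L) :
    Isl p (im f S) (im f Q) (im f R) (im f L) := by
  have d : ∀ X : Subgroup G, X ≤ D := fun X => le_top.trans hD
  refine ⟨hf ▸ syl_im h.syl hD f, im_mono f h.qS, im_mono f h.sL, im_le_nrm f h.nQ, fun X a => ?_,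
    by rw [← im_commutator (d _) (d _), h.comm], im_le_nrm f h.nS, fun a => h.nle ((im_le_im_iff' (d _) hk).1 a),
    by rw [← hf, ← im_ncl (d _) hD, ← im_sup (d _) (d _), h.gen]⟩
  refine (h.alt _ (le_nrm_pre (d _) a)).imp (fun b => ?_) (im_le_iff (d _)).2
  exact (im_pre_of_le (hf ▸ le_top)).ge.trans (im_mono f b)

namespace Isl
variable (h : Isl p S Q R L)
include h

theorem alt' (hN : ⊤ ≤ nrm N) : N ≤ L ∨ ncl R ⊤ ≤ N := (h.alt N (le_top.trans hN)).imp id fun a => H1.ncl_le a hN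
theorem not_le : ¬ ncl R ⊤ ≤ L := fun a => h.nle (H1.le_ncl.trans a)
theorem nrm_of (h1 : ncl R ⊤ ≤ nrm N) (h2 : L ≤ nrm N) : ⊤ ≤ nrm N := h.gen.ge.trans (sup_le h1 h2)
theorem comm_Y : ncl R ⊤ ≤ ⁅ncl R ⊤, Q⁆ := H1.ncl_le (h.comm.ge.trans (commutator_mono H1.le_ncl le_rfl))
  (h.nrm_of (nrm_comm_left _ _) (nrm_commutator (le_top.trans H1.le_nrm_ncl) h.nQ))

variable (hO : Op p (⊤ : Subgroup G) = ⊥)
include hO

theorem le_cen (hN : ⊤ ≤ nrm N) (h1 : N ≤ L) : ncl R ⊤ ≤ cen N := by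
  have a : N ⊓ Q = ⊥ := eq_bot_iff.2 ((le_Op_of_sn ((SN.of_normal inf_le_left (nrm_inf (le_nrm_self _) (h1.trans h.nQ))).trans
    (SN.of_normal le_top hN)) ((h.syl.2.to_le h.qS).to_le inf_le_right)).trans hO.le)
  have b := le_cen_symm (le_cen_of_inf_eq_bot (h1.trans h.nQ) (le_top.trans hN) a)
  exact h.comm_Y.trans ((commutator_mono le_rfl b).trans (comm_le_right (le_top.trans (nrm_cen hN))))

theorem Fst_eq : Fst (ncl R ⊤) = ncl R ⊤ := le_antisymm (Fst_le _) <| by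
  rcases h.alt' (nrm_Fst H1.le_nrm_ncl) with a | a
  · exact (le_inf le_rfl (h.le_cen hO (nrm_Fst H1.le_nrm_ncl) a)).trans (cen_Fst_le _)
  · exact a

theorem Lay_eq (hd : p ∣ ord (ncl R ⊤)) : Lay (ncl R ⊤) = ncl R ⊤ := le_antisymm (Lay_le _) <| by
  refine (h.alt' (nrm_Lay H1.le_nrm_ncl)).resolve_left fun a => ?_
  have b : Lay (ncl R ⊤) = ⊥ := by
    rw [← Lay_perfect, comm_eq_bot]; exact (Lay_le _).trans (h.le_cen hO (nrm_Lay H1.le_nrm_ncl) a)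
  have c := h.Fst_eq hO
  rw [Fst, b, bot_sup_eq] at c
  exact coprime_iff_not_dvd.1 (coprime_Fit (Op_eq_bot_of_sn hO (SN.of_normal le_top H1.le_nrm_ncl))) (by rwa [c])

theorem trans (hd : p ∣ ord (ncl R ⊤)) (h1 : IsComp K (ncl R ⊤)) (h2 : IsComp M (ncl R ⊤)) : ∃ s ∈ S, M = cj s K := by
  have nY : ⊤ ≤ nrm (ncl R ⊤) := H1.le_nrm_ncl
  have k : ∀ K, IsComp K (ncl R ⊤) → R ≤ ncl K S := fun K a => (h.alt _ H1.le_nrm_ncl).resolve_left fun b => by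
    have n := h.nrm_of (N := ncl K L) ((h.Lay_eq hO hd).ge.trans (iSup_cj_eq_ncl K L ▸ nrm_iSup fun l =>
      (a.cj_of_mem_nrm (nY (mem_top _))).Lay_le_nrm)) H1.le_nrm_ncl
    exact a.qs.not_le_cen (a.le.trans ((h.le_cen hO n (H1.ncl_le_of_le (H1.le_ncl.trans b) le_rfl)).trans (cen_anti H1.le_ncl)))
  have c : ∀ K M, IsComp K (ncl R ⊤) → IsComp M (ncl R ⊤) → (∀ s ∈ S, M ≠ cj s K) → R ≤ cen M := fun K M a b d =>
    (k K a).trans (H1.ncl_le_iff.2 fun s hs => (a.cj_of_mem_nrm (nY (mem_top _))).cen_of_ne b (d s hs).symm)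
  by_contra! e
  have : ncl R ⊤ ≤ cen R := (h.Lay_eq hO hd).ge.trans (Lay_le_iff.2 fun N a => le_cen_symm (by
    by_cases d : ∀ s ∈ S, N ≠ cj s K
    · exact c K N h1 a d
    · push Not at d
      obtain ⟨s, hs, rfl⟩ := d
      exact c M _ h2 a fun u hu w => e _ (mul_mem (inv_mem hu) hs) (by rw [H7.cj_mul, w, H2.cj_inv_cj])))
  exact h1.qs.not_le_cen (h1.le.trans ((H1.ncl_le (le_cen_symm this) (nrm_cen nY)).trans (cen_anti h1.le)))

theorem cop (hd : ¬ p ∣ ord (ncl R ⊤)) : R = ncl R ⊤ ∧ ⁅ncl R ⊤, ncl R ⊤⁆ ≤ cen (ncl R ⊤) ∧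
    ∃ t, t.Prime ∧ t ≠ p ∧ IsPGroup t (ncl R ⊤) := by
  have cY := h.comm_Y
  have nl := h.not_le
  have nY : ⊤ ≤ nrm (ncl R ⊤) := H1.le_nrm_ncl
  have lR : R ≤ ncl R ⊤ := H1.le_ncl
  have lc := fun N : Subgroup G => h.le_cen (N := N) hO
  have al := fun N : Subgroup G => h.alt' (N := N)
  have nn := fun N : Subgroup G => h.nrm_of (N := N)
  set Y := ncl R ⊤ with hY
  have co := coprime_iff_not_dvd.2 hd
  have c := cop_of_pgroup h.syl.2 co (le_top.trans nY)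
  have a : L ⊓ Y ≤ cen Q := le_cen_of_inf_eq_bot (inf_le_left.trans h.nQ) ((h.qS.trans h.sL).trans (nrm_inf (le_nrm_self _) (le_top.trans nY)))
    (by rw [inf_comm]; exact inf_eq_bot_of_isPGroup (h.syl.2.to_le h.qS) (coprime_of_le inf_le_right co))
  obtain ⟨t, ht, T, s1, s2, s3⟩ : ∃ t, t.Prime ∧ ∃ T, IsSylowIn t T Y ∧ S ≤ nrm T ∧ ¬ T ≤ L := by
    by_contra! k
    refine nl (le_of_sylows_le fun t ht _ => ?_)
    haveI := Fact.mk ht
    obtain ⟨T, a, b⟩ := c.exists_syl t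
    exact ⟨T, a, k t ht T a b⟩
  haveI := Fact.mk ht
  have rT := (h.alt T s2).resolve_left s3
  have fc := fc_of_coprime s1.1 (inf_le_right : L ⊓ Y ≤ Y) (Nat.coprime_of_dvd fun r hr d1 d2 => by
    haveI := Fact.mk hr
    obtain ⟨U, u1, u2⟩ := c.exists_syl r
    rcases h.alt U u2 with e | e
    · exact u1.3 (d2.trans (relIndex_dvd_of_le_left _ (le_inf e u1.1)))
    · have : r = t := by_contra fun ne => h.nle ((eq_bot_of_isPGroup_of_coprime (s1.2.to_le rT)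
        (cop_of_ne (u1.2.to_le e) ne)).le.trans bot_le)
      exact s1.3 (this ▸ d1))
  have yT : Y ≤ T := cY.trans (commutator_le.2 fun y hy q hq => by
    obtain ⟨u, hu, v, hv, rfl⟩ := fc y hy
    rw [comm_mul_left_of (commute_of_mem_cen (a hv) hq)]
    exact comm_le_left (h.qS.trans s2) (commutator_mem_commutator hu hq))
  have pY := s1.2.to_le yT
  have y0 : Y ≠ ⊥ := fun e => nl (e.le.trans bot_le)
  have f1 : Phi Y ≤ L := (al _ (nrm_Phi nY)).resolve_right (Phi_lt y0).not_ge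
  have f2 : ⁅Y, Y⁆ ≤ L ⊓ Y := le_inf ((comm_le_Phi (nilp_of_isPGroup pY)).trans f1) (comm_le_of_le le_rfl le_rfl)
  have nD : ⊤ ≤ nrm (L ⊓ Y) := nn _ (le_nrm_of_comm_le' inf_le_right f2) (nrm_inf (le_nrm_self _) (le_top.trans nY))
  have d := le_cen_symm (lc _ nD inf_le_left)
  refine ⟨le_antisymm lR ?_, f2.trans d, t, ht, fun e => hd (e ▸ dvd_card_of_isPGroup pY y0), pY⟩
  have dd : ∀ X : Subgroup G, X ≤ nrm (L ⊓ Y) := fun X => le_top.trans nD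
  haveI : IsMulCommutative (H7.im (qm (L ⊓ Y)) Y) := H7.isComm_iff.2 ((im_le_cen_iff (dd _) (dd _)).2 (by rw [kr_qm]; exact f2))
  obtain ⟨W, w1, w2, w3⟩ := H1.maschke (A := H7.im (qm (L ⊓ Y)) S) (V := H7.im (qm (L ⊓ Y)) Y) (U := H7.im (qm (L ⊓ Y)) R) ht (fun v hv => by
      obtain ⟨y, hy, hy', rfl⟩ := mem_im.1 hv
      rw [← ev_pow hy', ev_eq_one_iff (pow_mem hy' t), kr_qm]
      exact mem_inf.2 ⟨f1 (pow_mem_Phi pY hy), pow_mem hy t⟩)
    (im_le_nrm _ (le_top.trans nY)) (im_le_nrm _ h.nS) (im_mono _ lR)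
    (coprime_of_isPGroup (isPGroup_im _ h.syl.2) (coprime_im _ (coprime_of_le lR co))).symm
  have wY := le_sup_right.trans w3.le
  rcases h.alt _ (le_nrm_pre (dd _) w1) with e | e
  · have : W = ⊥ := by
      rw [← im_pre_of_le wY, im_eq_bot_iff (dd _), kr_qm]
      refine le_inf e ((pre_mono _ wY).trans ?_)
      rw [pre_im (dd _), kr_qm]; exact sup_le le_rfl inf_le_right
    rw [this, sup_bot_eq] at w3
    have k := (im_le_im_iff (dd _) (dd _)).1 w3.ge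
    rw [kr_qm] at k
    refine cY.trans ((commutator_mono k le_rfl).trans ?_)
    rw [comm_sup_cen a (by rw [h.comm]; exact (d.trans (cen_anti lR)).trans (cen_le_nrm _)), h.comm]
  · rw [inf_eq_left.2 ((im_le_iff (dd _)).2 e), im_eq_bot_iff (dd _), kr_qm] at w2
    exact absurd (w2.trans inf_le_left) h.nle

theorem not_dvd_of_solv (hs : Group.IsSolvable (ncl R ⊤)) : ¬ p ∣ ord (ncl R ⊤) := fun d =>
  h.not_le (((h.Lay_eq hO d).ge.trans (Lay_eq_bot_of_solv hs).le).trans bot_le)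

end Isl

theorem im_qm_top (h : ⊤ ≤ nrm N) : im (qm N) ⊤ = ⊤ := eq_top_iff.2 ((im_qm_dom N).ge.trans (im_mono _ le_top))

theorem Isl.quo (h : Isl p S Q R L) : Isl p (H7.im (qm (Op p ⊤)) S) (H7.im (qm (Op p ⊤)) Q) (H7.im (qm (Op p ⊤)) R) (H7.im (qm (Op p ⊤)) L) ∧
    Op p (⊤ : Subgroup (Quo (Op p (⊤ : Subgroup G)))) = ⊥ ∧ ncl (H7.im (qm (Op p ⊤)) R) ⊤ = H7.im (qm (Op p ⊤)) (ncl R ⊤) := by
  have n := le_nrm_Opi {p} (⊤ : Subgroup G)
  have t := im_qm_top n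
  refine ⟨h.im n t (by rw [kr_qm]; exact (Op_le_of_sylow h.syl).trans h.sL), ?_, ?_⟩
  · rw [← t]; exact Opi_im_qm _ _
  · rw [im_ncl (le_top.trans n) n, t]

theorem Isl.res_eq (h : Isl p S Q R L) (hR : pRes p R = R) (e : H7.im (qm (Op p ⊤)) R = H7.im (qm (Op p ⊤)) (ncl R ⊤)) :
    R = ncl R ⊤ := by
  have n := le_nrm_Opi {p} (⊤ : Subgroup G)
  have k := (im_le_im_iff (le_top.trans n) (le_top.trans n)).1 e.ge
  rw [kr_qm] at k
  refine le_antisymm H1.le_ncl ((H1.ncl_le (hR.ge.trans (H2.pRes_mono H1.le_ncl)) (H1.le_nrm_ncl.trans (H2.normalizer_le_normalizer_pRes _))).trans ?_)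
  exact (H2.pRes_mono k).trans ((pRes_sup_pg (isPGroup_Op p ⊤) ((Op_le_of_sylow h.syl).trans h.nS)).trans hR).le

theorem exists_quot_emb (hY : ⊤ ≤ nrm Y) [(pCore p Y).Normal] : ∃ ψ : Y ⧸ pCore p Y →* Quo (Op p (⊤ : Subgroup G)),
    Function.Injective ψ ∧ (⊤ : Subgroup _).map ψ = im (qm (Op p ⊤)) Y ∧ ∀ K : Subgroup (Y ⧸ pCore p Y),
      (K.comap (QuotientGroup.mk' (pCore p Y))).map Y.subtype = Y ⊓ pre (qm (Op p ⊤)) (K.map ψ) := by
  have n := le_top.trans (le_nrm_Opi {p} (⊤ : Subgroup G)) (a := Y)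
  let e := quotIm (qm (Op p ⊤)) n (pCore p Y) (by
    rw [pCore_eq_subgroupOf, kr_qm, Opi_of_normal _ le_top hY, inf_subgroupOf_right])
  have i : Function.Injective ((im (qm (Op p ⊤)) Y).subtype.comp e.toMonoidHom) := Subtype.val_injective.comp e.injective
  have v : ∀ y : Y, (im (qm (Op p ⊤)) Y).subtype.comp e.toMonoidHom (QuotientGroup.mk' _ y) = ev (qm (Op p ⊤)) (y : G) :=
    fun y => imHom_coe (f := qm (Op p ⊤)) n y
  refine ⟨_, i, ?_, fun K => le_antisymm ?_ fun x hx => ⟨⟨x, hx.1⟩, ?_, rfl⟩⟩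
  · rw [← map_map, map_top_of_surjective _ e.surjective, map_subtype_top]
  · rintro _ ⟨y, hy, rfl⟩
    exact mem_inf.2 ⟨y.2, mem_pre.2 ⟨n y.2, v y ▸ mem_map_of_mem _ hy⟩⟩
  · exact (mem_map_iff_mem i).1 ((v ⟨x, hx.1⟩).symm ▸ (mem_pre.1 hx.2).2)

end H1B
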