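import Cfsg.Agent.H1.LS4
import Cfsg.Agent.H2.Qd2

/-! Coordinates for natural `SL₂`-modules. -/

set_option linter.unusedSectionVars false

namespace H1B
open Subgroup Cfsg H7
open H2 (mv slU)
open H4 (slUp)
open scoped commutatorElement MatrixGroups

variable {G : Type*} [Group G] {F : Type*} [Field F] {L T U V : Subgroup G} {p : ℕ} {l s t u v w : G}
  {π : G → Fin 2 → F} {r : G → SL(2, F)}

structure NM (V L T : Subgroup G) (π : G → Fin 2 → F) (r : G → SL(2, F)) : Prop where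
  norm : L ≤ nrm V
  add : ∀ v ∈ V, ∀ w ∈ V, π (v * w) = π v + π w
  inj : ∀ v ∈ V, ∀ w ∈ V, π v = π w → v = w
  sur : ∀ x, ∃ v ∈ V, π v = x
  act : ∀ l ∈ L, ∀ v ∈ V, π (l * v * l⁻¹) = mv (r l) (π v)
  rsur : ∀ M, ∃ l ∈ L, r l = M
  rmul : ∀ l ∈ L, ∀ m ∈ L, r (l * m) = r l * r m
  ker : ∀ l ∈ L, r l = 1 → l = 1
  le : T ≤ L
  mem : ∀ l ∈ L, l ∈ T ↔ r l ∈ slU F

theorem exists_NM [Finite G] [Finite F] [Fact p.Prime] [CharP F p] (h : IsNaturalSL2Module F V L) (hf : L ⊓ cen V = ⊥)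
    (hT : IsSylowIn p T L) : ∃ (π : G → Fin 2 → F) (r : G → SL(2, F)), NM V L T π r := by
  classical
  obtain ⟨n, ρ, ψ, h1, h2, h3⟩ := h
  have k : kr ρ = ⊥ := by rw [kr, h2, subgroupOf_map_subtype, inf_comm, hf]
  have s := syl_im hT le_rfl ρ
  rw [im_dom_of_surj h1] at s
  obtain ⟨g, -, e⟩ := s.exists_cj_eq (H2.syl_slU (p := p))
  let π : G → Fin 2 → F := fun v => if h : v ∈ V then mv g (ψ (Additive.ofMul ⟨v, h⟩)) else 0
  have q : ∀ v (h : v ∈ V), π v = mv g (ψ (Additive.ofMul ⟨v, h⟩)) := fun v h => dif_pos h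
  have c : ∀ x, mv g⁻¹ (mv g x) = x := fun x => by rw [← H2.mv_mul, inv_mul_cancel, H2.mv_one]
  refine ⟨π, fun l => g * ev ρ l * g⁻¹, n, fun v a w b => ?_, fun v a w b d => ?_, fun x => ?_, fun l a v b => ?_, fun M => ?_,
    fun l a m b => by rw [ev_mul a b, conj_mul], fun l a b => ?_, hT.1, fun l a => ?_⟩
  · rw [q _ a, q _ b, q _ (mul_mem a b), ← H2.mv_add, ← map_add]; rfl
  · rw [q _ a, q _ b] at d
    have := congrArg (mv g⁻¹) d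
    rw [c, c] at this
    exact congrArg Subtype.val (Additive.ofMul.injective (ψ.injective this))
  · obtain ⟨v, hv⟩ := ψ.surjective (mv g⁻¹ x)
    refine ⟨(v.toMul : V), v.toMul.2, ?_⟩
    rw [q _ v.toMul.2]
    change mv g (ψ v) = x
    rw [hv, ← H2.mv_mul, mul_inv_cancel, H2.mv_one]
  · obtain ⟨w, w1, w2⟩ := h3 ⟨l, a⟩ ⟨v, b⟩
    rw [show l * v * l⁻¹ = w from w1.symm, q _ w.2, q _ b, H2.mv_mul, H2.mv_mul, c, ev_eq a]
    exact congrArg (mv g) w2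
  · obtain ⟨l, hl⟩ := h1 (g⁻¹ * M * g)
    exact ⟨l, l.2, by rw [ev_coe, hl]; group⟩
  · rw [conj_eq_one_iff, ev_eq_one_iff a, k] at b
    exact b
  · rw [← e, H7.conj_mem_cj, ev_mem_im_iff a (k.le.trans bot_le)]

theorem mem_slU {M : SL(2, F)} : M ∈ slU F ↔ M 0 0 = 1 ∧ M 1 0 = 0 := by
  refine ⟨fun ⟨c, e⟩ => e ▸ ⟨rfl, rfl⟩, fun ⟨a, b⟩ => ⟨M 0 1, ?_⟩⟩
  have d := M.det_coe
  rw [Matrix.det_fin_two, a, b, one_mul, mul_zero, sub_zero] at d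
  refine Matrix.SpecialLinearGroup.ext _ _ fun i j => ?_
  fin_cases i <;> fin_cases j <;> simp [a, b, d]

theorem vec_ext {x y : Fin 2 → F} (h0 : x 0 = y 0) (h1 : x 1 = y 1) : x = y := funext fun i => by
  fin_cases i <;> assumption

namespace NM
variable (h : NM V L T π r)
include h

theorem one : π 1 = 0 := by simpa using h.add 1 (one_mem _) 1 (one_mem _)
theorem inv (hv : v ∈ V) : π v⁻¹ = -π v :=
  eq_neg_of_add_eq_zero_left (by rw [← h.add _ (inv_mem hv) _ hv, inv_mul_cancel, h.one])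
theorem eq_one (hv : v ∈ V) (e : π v = 0) : v = 1 := h.inj _ hv _ (one_mem _) (by rw [e, h.one])
theorem comm (hv : v ∈ V) (hw : w ∈ V) : v * w = w * v :=
  h.inj _ (mul_mem hv hw) _ (mul_mem hw hv) (by rw [h.add _ hv _ hw, h.add _ hw _ hv, add_comm])
theorem rone : r 1 = 1 := by simpa using h.rmul 1 (one_mem _) 1 (one_mem _)
theorem rinv (hl : l ∈ L) : r l⁻¹ = (r l)⁻¹ :=
  eq_inv_of_mul_eq_one_left (by rw [← h.rmul _ (inv_mem hl) _ hl, inv_mul_cancel, h.rone])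
theorem exT (c : F) : ∃ t ∈ T, r t = slUp c := by
  obtain ⟨t, a, b⟩ := h.rsur (slUp c)
  exact ⟨t, (h.mem t a).2 ⟨c, b.symm⟩, b⟩
theorem fix_iff (hl : l ∈ L) (hv : v ∈ V) : v ∈ cen1 l ↔ mv (r l) (π v) = π v := by
  rw [mem_cen1, ← h.act l hl v hv, eq_comm, ← mul_inv_eq_iff_eq_mul]
  exact ⟨fun e => by rw [e], h.inj _ (conj_mem h.norm hl hv) _ hv⟩
theorem cen1_iff (hs : s ∈ T) (h1 : s ≠ 1) (hv : v ∈ V) : v ∈ cen1 s ↔ π v 1 = 0 := by
  obtain ⟨c, e⟩ := (h.mem s (h.le hs)).1 hs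
  have : c ≠ 0 := fun k => h1 (h.ker s (h.le hs) (by rw [← e, k, H4.slUp_zero]))
  rw [h.fix_iff (h.le hs) hv, ← e, H2.mv_slUp]
  exact ⟨fun k => by simpa [this] using congrFun k 0, fun k => vec_ext (by simp [k]) rfl⟩
theorem mem_C : v ∈ V ⊓ cen T ↔ v ∈ V ∧ π v 1 = 0 := by
  refine and_congr_right fun hv => ⟨fun k => ?_, fun k => mem_cen.2 fun s hs => ?_⟩
  · obtain ⟨t, a, b⟩ := h.exT 1
    refine (h.cen1_iff a (fun e => ?_) hv).1 (cen_le_cen1 a k)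
    rw [e, h.rone, ← H4.slUp_zero] at b
    exact zero_ne_one (H2.slUp_inj b)
  · by_cases e : s = 1
    · rw [e, one_mul, mul_one]
    · exact (mem_cen1.1 ((h.cen1_iff hs e hv).2 k)).symm
theorem comm_mem (hl : l ∈ L) (hv : v ∈ V) : ⁅v, l⁆ ∈ V :=
  comm_le_left h.norm (commutator_mem_commutator hv hl)
theorem pi_comm {c : F} (hl : l ∈ L) (hv : v ∈ V) (e : r l = slUp c) : π ⁅v, l⁆ = ![-(c * π v 1), 0] := by
  rw [show ⁅v, l⁆ = v * (l * v * l⁻¹)⁻¹ by rw [commutatorElement_def]; group, h.add _ hv _ (inv_mem (conj_mem h.norm hl hv)),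
    h.inv (conj_mem h.norm hl hv), h.act l hl v hv, e, H2.mv_slUp]
  exact vec_ext (by simp) (by simp)
theorem comm_le : ⁅V, T⁆ ≤ V ⊓ cen T := commutator_le.2 fun v hv t ht => by
  obtain ⟨c, e⟩ := (h.mem t (h.le ht)).1 ht
  exact h.mem_C.2 ⟨h.comm_mem (h.le ht) hv, by rw [h.pi_comm (h.le ht) hv e.symm]; rfl⟩
theorem mem_nrm [Finite F] (hl : l ∈ L) (e : r l 1 0 = 0) : l ∈ nrm T := mem_normalizer_iff.2 fun x => by
  by_cases hx : x ∈ L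
  · rw [h.mem _ hx, h.mem _ (mul_mem (mul_mem hl hx) (inv_mem hl)), h.rmul _ (mul_mem hl hx) _ (inv_mem hl), h.rmul _ hl _ hx, h.rinv hl]
    exact mem_normalizer_iff.1 (H2.mem_nrm_slU e) _
  · exact iff_of_false (fun a => hx (h.le a)) fun a => hx (by simpa [mul_assoc] using mul_mem (mul_mem (inv_mem hl) (h.le a)) hl)
theorem ex_diag [Finite F] {a : F} (ha : a ≠ 0) : ∃ l ∈ L ⊓ nrm T, ∀ v ∈ V, π (l * v * l⁻¹) = ![a * π v 0, a⁻¹ * π v 1] := by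
  obtain ⟨l, h1, h2⟩ := h.rsur (H4.sl2 a 0 0 a⁻¹ (by simp [ha]))
  refine ⟨l, mem_inf.2 ⟨h1, h.mem_nrm h1 (by rw [h2]; rfl)⟩, fun v hv => ?_⟩
  rw [h.act l h1 v hv, h2]
  exact vec_ext (by rw [H2.mv_apply]; simp [H4.sl2]) (by rw [H2.mv_apply]; simp [H4.sl2])
theorem card_V : ord V = Nat.card F ^ 2 := by
  rw [Nat.card_congr (Equiv.ofBijective (fun v : V => π v) ⟨fun v w e => Subtype.ext (h.inj _ v.2 _ w.2 e), fun x =>
    let ⟨v, a, b⟩ := h.sur x; ⟨⟨v, a⟩, b⟩⟩), Nat.card_fun, Nat.card_eq_fintype_card (α := Fin 2), Fintype.card_fin]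
theorem card_C : ord (V ⊓ cen T) = Nat.card F :=
  Nat.card_congr (Equiv.ofBijective (fun v : (V ⊓ cen T : Subgroup G) => π v 0) ⟨fun v w e => Subtype.ext (h.inj _ v.2.1 _ w.2.1
    (vec_ext e ((h.mem_C.1 v.2).2.trans (h.mem_C.1 w.2).2.symm))), fun x =>
    let ⟨v, a, b⟩ := h.sur ![x, 0]; ⟨⟨v, h.mem_C.2 ⟨a, by rw [b]; rfl⟩⟩, by simp only [b]; rfl⟩⟩)

end NM

end H1B
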