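import Cfsg.Agent.H1.Two5
import Cfsg.Agent.H1.V2
import Cfsg.Agent.H7.Ut
import Cfsg.Agent.H8.Dihedral

/-! Subgroups with a normal Sylow subgroup and cyclic quotient. -/

set_option linter.unusedSectionVars false

namespace H1B
open Subgroup Cfsg H7
open H2 (cj IsSylowIn)

variable {G : Type*} [Group G] [Finite G] {p : ℕ} [Fact p.Prime] {C : Subgroup G → Prop} {S : Subgroup G} {x : G}

/-- every `p`-closed subgroup with cyclic `p`-quotient satisfies `C` -/
def PBC (p : ℕ) (C : Subgroup G → Prop) : Prop :=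
  ∀ H : Subgroup G, (∀ S : Sylow p ↥H, (S : Subgroup ↥H).Normal) →
    (∀ (S : Sylow p ↥H) [(S : Subgroup ↥H).Normal], IsCyclic (↥H ⧸ (S : Subgroup ↥H))) → C H

theorem PBC.sup (h : PBC p C) (hS : IsPGroup p S) (hx : x ∈ nrm S) : C (S ⊔ zpowers x) := by
  have n : S ⊔ zpowers x ≤ nrm S := sup_le (le_nrm_self S) (zpowers_le.2 hx)
  haveI := normal_subgroupOf n
  have cy : ∀ (N : Subgroup (S ⊔ zpowers x : Subgroup G)) [N.Normal], S.subgroupOf _ ≤ N → IsCyclic (_ ⧸ N) := fun N _ hN => by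
    refine ⟨⟨QuotientGroup.mk' N ⟨x, mem_sup_right (mem_zpowers x)⟩, fun q => ?_⟩⟩
    obtain ⟨⟨y, hy⟩, rfl⟩ := QuotientGroup.mk'_surjective N q
    obtain ⟨s, hs, _, ⟨k, rfl⟩, rfl⟩ := (H2.mem_sup_of_le_normalizer' (zpowers_le.2 hx)).1 hy
    refine ⟨k, ?_⟩
    rw [show (⟨_, hy⟩ : (S ⊔ zpowers x : Subgroup G)) = ⟨s, mem_sup_left hs⟩ * ⟨x, mem_sup_right (mem_zpowers x)⟩ ^ k from rfl,
      map_mul, map_zpow, show QuotientGroup.mk' N ⟨s, mem_sup_left hs⟩ = 1 from (QuotientGroup.eq_one_iff _).2 (hN hs), one_mul]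
  have le : ∀ T : Sylow p (S ⊔ zpowers x : Subgroup G), S.subgroupOf (S ⊔ zpowers x) ≤ T := fun T =>
    IsPGroup.le_sylow_of_normal (N := S.subgroupOf (S ⊔ zpowers x)) hS.comap_subtype T
  exact h _ (fun T => Normal.of_commutator_le _
    ((Normal.quotient_commutative_iff_commutator_le.1 (cy _ le_rfl).isMulCommutative).trans (le T))) fun T _ => cy _ (le T)

theorem pbc_of (P : Sylow p G) (hC : ∀ g H, C (cj g H) → C H)
    (h : ∀ T ≤ (P : Subgroup G), ∀ y ∈ nrm T, (orderOf y).Coprime p → C (T ⊔ zpowers y)) : PBC p C := fun H h1 h2 => by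
  obtain ⟨S⟩ : Nonempty (Sylow p H) := inferInstance
  haveI := h1 S
  obtain ⟨q, hq⟩ := (h2 S).exists_generator
  obtain ⟨x, rfl⟩ := QuotientGroup.mk'_surjective _ q
  obtain ⟨a, b, -, -, rfl, ⟨k, ha⟩, hb⟩ := H2.exists_p_part (p := p) x (orderOf_pos x).ne'
  haveI := Sylow.unique_of_normal S inferInstance
  obtain ⟨Q, hQ⟩ := (H2.isPGroup_zpowers (x := a) (k := k) (by rw [← ha, pow_orderOf_eq_one])).exists_le_sylow
  rw [Subsingleton.elim Q S] at hQ
  rw [map_mul, show QuotientGroup.mk' (S : Subgroup H) a = 1 from (QuotientGroup.eq_one_iff _).2 (hQ (mem_zpowers a)),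
    one_mul] at hq
  have e : (S : Subgroup H).map H.subtype ⊔ zpowers (b : G) = H := le_antisymm (sup_le (map_subtype_le _) (zpowers_le.2 b.2))
    fun y hy => by
      obtain ⟨j, hj⟩ := hq (QuotientGroup.mk' _ ⟨y, hy⟩)
      have : (b ^ j)⁻¹ * ⟨y, hy⟩ ∈ (S : Subgroup H) := QuotientGroup.eq.1 ((map_zpow (QuotientGroup.mk' (S : Subgroup H)) b j).trans hj)
      simpa using mul_mem (mem_sup_right (zpow_mem (mem_zpowers (b : G)) j))
        (mem_sup_left (S := (S : Subgroup H).map H.subtype) (mem_map_of_mem _ this))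
  obtain ⟨g, hg⟩ := H2.sylow_exists_cj_le P (S.2.map H.subtype)
  refine hC g H ?_
  rw [← e, H7.cj_sup, H7.cj_zpowers]
  refine h _ hg _ (by rw [← cj_nrm]; exact H7.conj_mem_cj.2 (le_nrm_map_subtype _ b.2)) ?_
  rw [show orderOf (g * b * g⁻¹) = orderOf b from ((MulAut.conj g).orderOf_eq _).trans (Subgroup.orderOf_coe b)]
  exact hb

theorem cyc_sup_cop (hS : IsPGroup p S) (c : IsCyclic S) (hx : x ∈ cen S) (h : (orderOf x).Coprime p) :
    IsCyclic (S ⊔ zpowers x : Subgroup G) := by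
  obtain ⟨k, hk⟩ := card_pgroup hS
  exact cyc_sup c (H7.cyc_zpowers x) (le_cen_symm (zpowers_le.2 hx)) (by rw [hk, card_zpowers_eq]; exact (h.symm.pow_left k))

end H1B
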