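import Cfsg.Agent.H1.LS4
import Cfsg.Prelude.Def_SylowChains

/-! Control of Sylow intersections by families of subgroups. -/

set_option linter.unusedSectionVars false

namespace H1B
open Subgroup Cfsg H7 Relation
open scoped commutatorElement

theorem rtg_fin {α : Type*} {r : α → α → Prop} {a b : α} : ReflTransGen r a b ↔
    ∃ (n : ℕ) (c : Fin (n + 1) → α), c 0 = a ∧ c (Fin.last n) = b ∧ ∀ i : Fin n, r (c i.castSucc) (c i.succ) := by
  refine ⟨fun h => ?_, ?_⟩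
  · induction h with
    | refl => exact ⟨0, fun _ => a, rfl, rfl, fun i => i.elim0⟩
    | @tail u v _ h2 ih =>
      obtain ⟨n, c, h3, h4, h5⟩ := ih
      refine ⟨n + 1, Fin.snoc c v, by simpa using h3, by simp, fun i => ?_⟩
      induction i using Fin.lastCases with
      | last => simpa [h4] using h2
      | cast i => rw [Fin.succ_castSucc, Fin.snoc_castSucc, Fin.snoc_castSucc]; exact h5 i
  · rintro ⟨n, c, rfl, rfl, h⟩
    generalize Fin.last n = i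
    induction i using Fin.induction with
    | zero => exact .refl
    | succ i ih => exact ih.tail (h i)

theorem rtg_map {α β : Type*} {r : α → α → Prop} {s : β → β → Prop} (f : α → β) (h : ∀ a b, r a b → s (f a) (f b))
    {a b : α} (k : ReflTransGen r a b) : ReflTransGen s (f a) (f b) := by
  induction k with
  | refl => exact .refl
  | tail _ h2 ih => exact ih.tail (h _ _ h2)

variable {G G' : Type*} [Group G] [Group G'] {A B D E H K L M N P Q R S T U X Y : Subgroup G} {p : ℕ} {g x y z : G}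
  {F F' : Set (Subgroup G)} {φ : G →* G'}

/-- One step of a chain of Sylow subgroups of `H` over `D`. -/
def Stp (p : ℕ) (F : Set (Subgroup G)) (H D S T : Subgroup G) : Prop := IsSylowIn p T H ∧
  ∃ X ∈ F, IsSylowIn p (S ⊓ X) X ∧ IsSylowIn p (T ⊓ X) X ∧ D ≤ T ⊓ X ∧ ∃ x ∈ X, cj x S = T
abbrev Chn (p : ℕ) (F : Set (Subgroup G)) (H D : Subgroup G) := ReflTransGen (Stp p F H D)
def CSI (p : ℕ) (F : Set (Subgroup G)) (H : Subgroup G) : Prop :=
  ∀ S T, IsSylowIn p S H → IsSylowIn p T H → S ⊓ T ≠ ⊥ → Chn p F H (S ⊓ T) S T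

theorem Chn.anti (h : Chn p F H D S T) (hE : E ≤ D) : Chn p F H E S T :=
  rtg_map (s := Stp p F H E) id (fun _ _ ⟨a, X, b, c, d, e, f⟩ => ⟨a, X, b, c, d, hE.trans e, f⟩) h

theorem CSI.chn (h : CSI p F H) (hS : IsSylowIn p S H) (hT : IsSylowIn p T H) (hD : D ≠ ⊥) (h1 : D ≤ S) (h2 : D ≤ T) :
    Chn p F H D S T := (h S T hS hT fun e => hD (eq_bot_iff.2 ((le_inf h1 h2).trans e.le))).anti (le_inf h1 h2)

theorem syl_map_iff (hφ : Function.Injective φ) : IsSylowIn p (P.map φ) (H.map φ) ↔ IsSylowIn p P H :=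
  ⟨fun h => ⟨(map_le_map_iff_of_injective hφ).1 h.1, h.2.of_equiv (P.equivMapOfInjective φ hφ).symm,
    relIndex_map_map_of_injective P H hφ ▸ h.3⟩,
   fun h => ⟨map_mono h.1, h.2.map _, (relIndex_map_map_of_injective P H hφ).symm ▸ h.3⟩⟩

theorem stp_map_iff (hφ : Function.Injective φ) :
    Stp p (map φ '' F) (H.map φ) (D.map φ) (S.map φ) (T.map φ) ↔ Stp p F H D S T := by
  simp only [Stp, syl_map_iff hφ, Set.exists_mem_image, ← map_inf _ _ _ hφ, map_le_map_iff_of_injective hφ,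
    mem_map, exists_exists_and_eq_and, ← cj_map, (map_injective hφ).eq_iff]

theorem csi_map_iff (hφ : Function.Injective φ) : CSI p (map φ '' F) (H.map φ) ↔ CSI p F H := by
  have e : ∀ {T}, IsSylowIn p T (H.map φ) → ∃ T', T = map φ T' := fun h =>
    ⟨_, (map_comap_eq_self (h.1.trans (map_le_range _ _))).symm⟩
  refine ⟨fun h S T hS hT ne => ?_, fun h S T hS hT ne => ?_⟩
  · have := h _ _ ((syl_map_iff hφ).2 hS) ((syl_map_iff hφ).2 hT) (by
      rwa [← map_inf _ _ _ hφ, Ne, map_eq_bot_iff_of_injective _ hφ])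
    rw [← map_inf _ _ _ hφ] at this
    have k : ∀ U, Chn p (map φ '' F) (H.map φ) ((S ⊓ T).map φ) (S.map φ) U → ∃ V, U = map φ V ∧ Chn p F H (S ⊓ T) S V :=
      fun U hU => by
        induction hU with
        | refl => exact ⟨S, rfl, .refl⟩
        | tail _ h2 ih =>
          obtain ⟨V, rfl, k⟩ := ih
          obtain ⟨W, rfl⟩ := e h2.1
          exact ⟨W, rfl, k.tail ((stp_map_iff hφ).1 h2)⟩
    obtain ⟨V, a, b⟩ := k _ this
    rwa [← map_injective hφ a] at b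
  · obtain ⟨S, rfl⟩ := e hS
    obtain ⟨T, rfl⟩ := e hT
    rw [← map_inf _ _ _ hφ, Ne, map_eq_bot_iff_of_injective _ hφ] at ne
    rw [← map_inf _ _ _ hφ]
    exact rtg_map (map φ) (fun _ _ => (stp_map_iff hφ).2) (h S T ((syl_map_iff hφ).1 hS) ((syl_map_iff hφ).1 hT) ne)

variable [Finite G] [hp : Fact p.Prime]

theorem mem_sylowMembers : X ∈ sylowMembers p F S ↔ X ∈ F ∧ IsSylowIn p (S ⊓ X) X :=
  and_congr_right fun _ => ⟨fun ⟨P, e⟩ => e ▸ syl_sub P, fun h => ⟨h.toSylow, h.map_toSylow⟩⟩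

theorem csi_top : ControlsSylowIntersections p F ↔ CSI p F ⊤ := by
  refine ⟨fun h S T hS hT ne => ?_, fun h S T _ ne => ?_⟩
  · by_cases e : S = T
    · rw [e]
    obtain ⟨n, c, X, x, a, b, k⟩ := h hS.toSylowTop hT.toSylowTop (fun t => e (congrArg Sylow.toSubgroup t)) ne
    refine rtg_fin.2 ⟨n, fun i => c i, congrArg Sylow.toSubgroup a, congrArg Sylow.toSubgroup b, fun i => ?_⟩
    obtain ⟨h1, h2, h3, h4, h5⟩ := k i
    rw [mem_sylowMembers] at h1 h2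
    exact ⟨syl_top _, _, h1.1, h1.2, h2.2, h5, _, h3, (congrArg (cj (x i)) h4.symm).trans (H2.cj_cj_inv _ _)⟩
  obtain ⟨n, c, a, b, k⟩ := rtg_fin.1 (h S T (syl_top S) (syl_top T) ne)
  have s : ∀ i, IsSylowIn p (c i) ⊤ := Fin.cases (a ▸ syl_top S) fun i => (k i).1
  choose _ X h1 h2 h3 h4 x h5 h6 using k
  exact ⟨n, fun i => (s i).toSylowTop, X, x, Sylow.ext a, Sylow.ext b, fun i => ⟨mem_sylowMembers.2 ⟨h1 i, h2 i⟩,
    mem_sylowMembers.2 ⟨h1 i, h3 i⟩, h5 i, (congrArg (cj (x i)⁻¹) (h6 i).symm).trans (H2.cj_inv_cj _ _), h4 i⟩⟩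

theorem mem_functorFamily {f : Subgroup G → Set (Subgroup G)} :
    X ∈ functorFamily p f M ↔ ∃ P, IsSylowIn p P M ∧ ∃ Y ∈ f P, X = M ⊓ nrm Y :=
  ⟨fun ⟨P, h⟩ => ⟨_, syl_sub P, h⟩, fun ⟨P, a, h⟩ => ⟨a.toSylow, a.map_toSylow.symm ▸ h⟩⟩

theorem reg_iff {f : Subgroup G → Set (Subgroup G)} : IsFunctorRegular p f M ↔ CSI p (functorFamily p f M) M := by
  rw [IsFunctorRegular, csi_top, ← csi_map_iff M.subtype_injective, map_subtype_top, Set.image_image,
    Set.image_congr (g := id), Set.image_id]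
  intro X hX
  obtain ⟨P, -, Y, -, rfl⟩ := mem_functorFamily.1 hX
  exact subgroupOf_map inf_le_left

theorem syl_cj_inf (h : IsSylowIn p (S ⊓ X) X) (g : G) : IsSylowIn p (cj g S ⊓ cj g X) (cj g X) :=
  H7.cj_inf g S X ▸ syl_cj h g

/-- A `p`-subgroup meeting `X` in a Sylow subgroup of `X`, which has a Sylow subgroup of a larger `Y`. -/
theorem syl_inf_up (hP : IsSylowIn p P Y) (hX : P ≤ X) (hXY : X ≤ Y) (hS : IsPGroup p S) (h : IsSylowIn p (S ⊓ X) X) :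
    IsSylowIn p (S ⊓ Y) Y := H2.isSylowIn_of_card_le hP (hS.to_le inf_le_left) inf_le_right
  ((h.card_le hP.2 hX).trans (card_le_of_le (inf_le_inf_left _ hXY)))

theorem Chn.exists_cj (hF : IsNormalSet F) (h : Chn p F H D S T) : ∃ z, T = cj z S ∧ ReflTransGen
    (fun a b => ∃ Y ∈ sylowMembers p F S, a⁻¹ * b ∈ Y ∧ cj b⁻¹ D ≤ S ⊓ Y) 1 z := by
  induction h with
  | refl => exact ⟨1, (H2.cj_one S).symm, .refl⟩
  | tail _ h2 ih =>
    obtain ⟨z, rfl, k⟩ := ih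
    obtain ⟨-, X, h1, h2, -, h3, x, h4, rfl⟩ := h2
    refine ⟨x * z, (H7.cj_mul _ _ _).symm, k.tail ⟨cj z⁻¹ X, mem_sylowMembers.2 ⟨hF X h1 z, ?_⟩,
      mem_cj_inv.2 (by simpa [mul_assoc] using h4), ?_⟩⟩
    · simpa only [H2.cj_inv_cj] using syl_cj_inf h2 z⁻¹
    rw [H7.cj_le_iff, inv_inv, H7.cj_inf, H7.cj_mul, H7.cj_mul x z, H2.cj_cj_inv, cj_of_mem h4]
    exact h3

theorem chn_of_rtg (hF : IsNormalSet F) (hS : IsSylowIn p S ⊤) (h : ReflTransGen
    (fun a b => ∃ Y ∈ sylowMembers p F S, a⁻¹ * b ∈ Y ∧ cj b⁻¹ D ≤ S ⊓ Y) 1 z) : Chn p F ⊤ D S (cj z S) := by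
  nth_rw 1 [← H2.cj_one S]
  refine rtg_map (s := Stp p F ⊤ D) (fun a => cj a S) (fun a b k => ?_) h
  obtain ⟨Y, h1, h2, h3⟩ := k
  rw [mem_sylowMembers] at h1
  have e : cj a Y = cj b Y := by rw [← cj_of_mem h2, ← H7.cj_mul, mul_inv_cancel_left, cj_of_mem h2]
  refine ⟨syl_cj_of_mem hS (le_nrm_of_normal ⊤ _ trivial), cj a Y, inv_inv a ▸ hF Y h1.1 a⁻¹, syl_cj_inf h1.2 a,
    e ▸ syl_cj_inf h1.2 b, ?_, b * a⁻¹, mem_cj.2 (by simpa [mul_assoc] using h2), by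
      rw [← H7.cj_mul, inv_mul_cancel_right]⟩
  rwa [e, ← H7.cj_inf, le_cj_iff]

end H1B
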